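import Mathlib
import Cfsg.Agent.Lib.ClDeg.TSys
import Cfsg.Agent.Lib.TvGen.Grp

/-!
# The least degree of a non-linear complex representation of the special linear group
-/

set_option autoImplicit false

namespace CfsgLib.ClDeg

open Module CfsgLib.MinDeg
open scoped _root_.Classical

theorem exists_pow_ne {F : Type*} [Field F] [Fintype F] {k : ℕ} (h : ¬ Fintype.card F - 1 ∣ k) :
    ∃ x : F, x ≠ 0 ∧ x ^ k ≠ 1 := by
  rw [← FiniteField.forall_pow_eq_one_iff] at h
  obtain ⟨x, hx⟩ := not_forall.1 h
  exact ⟨x, x.ne_zero, fun e => hx (Units.ext (by simpa using e))⟩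

theorem sl_arith {q R d e : ℤ} (hq : 2 ≤ q) (hR : 2 ≤ R) (he : 0 ≤ e)
    (h : d * ((q * R + 1) * (e + q - 1) - (q + 1) * e) * (q - 1) = (q ^ 2 * R - 1) * (q * R - 1) * (e + q - 1))
    (hqR : q ≤ R) : q * (q * R - 1) ≤ (q - 1) * d := by
  rcases he.eq_or_lt with rfl | he
  · exfalso
    have h1 : d * (q * R + 1) * (q - 1) = (q ^ 2 * R - 1) * (q * R - 1) :=
      mul_right_cancel₀ (show q - 1 ≠ 0 by omega) (by linear_combination h)
    have h2 : q * R + 1 ∣ 2 * (q + 1) := ⟨d * (q - 1) - (q ^ 2 * R - 2 * q - 1), by linear_combination -h1⟩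
    rcases hq.eq_or_lt with rfl | hq
    · have := Int.le_of_dvd (by norm_num) h2
      obtain rfl : R = 2 := by omega
      norm_num at h2
    · have := Int.le_of_dvd (by omega) h2
      nlinarith
  · have h1 : 0 < (q * R + 1) * (e + q - 1) - (q + 1) * e := by
      have := mul_pos (mul_pos he (show 0 < R - 1 by omega)) (show 0 < q by omega)
      have := mul_pos (show 0 < q * R + 1 by nlinarith) (show 0 < q - 1 by omega)
      nlinarith
    refine le_of_mul_le_mul_right ?_ h1
    have h2 : 0 ≤ (q * R - 1) * ((q + 1) * (q - 1) * (e - 1)) := by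
      have : 0 ≤ q * R - 1 := by nlinarith
      have : 0 ≤ q - 1 := by omega
      have : 0 ≤ e - 1 := by omega
      positivity
    nlinarith

variable {F N : Type*} [Field F] [AddCommGroup N] [Module F N]

/-- the transvection as an element of the special linear group -/
noncomputable def tv (a : N) (f : Dual F N) : SpecialLinearGroup F N :=
  if h : f a = 0 then ⟨LinearEquiv.transvection h, LinearEquiv.transvection.det_eq_one h⟩ else 1

theorem tv_apply {a : N} {f : Dual F N} (h : f a = 0) (x : N) : (tv a f).1 x = x + f x • a := by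
  rw [tv, dif_pos h]; rfl

theorem sl_ext {g h : SpecialLinearGroup F N} (e : ∀ x, g.1 x = h.1 x) : g = h := Subtype.ext (LinearEquiv.ext e)

theorem sl_mul (g h : SpecialLinearGroup F N) (x : N) : (g * h).1 x = g.1 (h.1 x) := rfl

theorem exists_sl (g : N ≃ₗ[F] N) (h : LinearMap.det (g : N →ₗ[F] N) = 1) :
    ∃ g' : SpecialLinearGroup F N, g'.1 = g :=
  ⟨⟨g, by rw [← Units.val_inj, LinearEquiv.coe_det, h]; rfl⟩, rfl⟩

theorem finrank_span_le_card' (s : Finset N) : finrank F (Submodule.span F (s : Set N)) ≤ s.card :=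
  finrank_span_finset_le_card s

theorem exists_notMem {L M : Submodule F N} [FiniteDimensional F L] (h : finrank F L < finrank F M) :
    ∃ x ∈ M, x ∉ L := by
  by_contra! e
  exact h.not_ge (Submodule.finrank_mono e)

theorem finrank_pair_le (a b : N) : finrank F (Submodule.span F {a, b}) ≤ 2 := by
  have := (finrank_span_le_card' (F := F) {a, b}).trans Finset.card_le_two
  rwa [Finset.coe_pair] at this

theorem finrank_triple_le (a b c : N) : finrank F (Submodule.span F {a, b, c}) ≤ 3 := by
  have := (finrank_span_le_card' (F := F) {a, b, c}).trans Finset.card_le_three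
  rwa [Finset.coe_insert, Finset.coe_pair] at this

variable [FiniteDimensional F N]

/-- the transvection groups of the special linear group -/
noncomputable def slSys (hN : 3 ≤ finrank F N) : TSys F N (SpecialLinearGroup F N) where
  act := SpecialLinearGroup.toLinearEquiv
  S := {a | a ≠ 0}
  C _ := ⊤
  T := tv
  ne_zero _ h := h
  mem_C _ _ := trivial
  C_symm _ _ _ _ _ := trivial
  comb _ _ _ _ _ _ _ h := h
  act_S g a ha := (map_ne_zero_iff _ g.1.injective).2 ha
  T_add a _ f f' h h' := sl_ext fun x => by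
    rw [sl_mul, tv_apply h, tv_apply h', tv_apply (by simp [h, h'])]
    simp only [map_add, map_smul, h, LinearMap.add_apply]; module
  T_conj g a _ f h := by
    rw [mul_inv_eq_iff_eq_mul]
    refine sl_ext fun x => ?_
    rw [sl_mul, sl_mul, tv_apply h, tv_apply (by simpa using h)]
    simp [SpecialLinearGroup.toLinearEquiv_eq_coe]
  T_act a _ f h x _ := tv_apply h x
  trans a ha b _ _ hb a' ha' b' _ _ hb' := by
    obtain ⟨g, h1, h2⟩ := LS.exists_equiv_two ha' hb' ha hb
    obtain ⟨w, -, hw⟩ := exists_notMem (L := Submodule.span F {a, b}) (M := ⊤)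
      (by have := finrank_pair_le (F := F) a b; rw [finrank_top]; omega)
    obtain ⟨f, f0, f1⟩ := exists_dual_span hw
    have d0 := (LinearEquiv.isUnit_det' g).ne_zero
    obtain ⟨k, hk, hd⟩ := LS.exists_dil (((LinearMap.det (g : N →ₗ[F] N))⁻¹ - 1) • f) w (by simpa [f1] using d0)
    obtain ⟨g', hg'⟩ := exists_sl (k.trans g) (by
      rw [LinearEquiv.coe_trans, LinearMap.det_comp, hd]; simp [f1, d0])
    refine ⟨g', ?_, ?_⟩
    · change g'.1 a = a'
      simp [hg', hk, f0 a (Submodule.subset_span (by simp)), h1]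
    · change g'.1 b = b'
      simp [hg', hk, f0 b (Submodule.subset_span (by simp)), h2]

variable (hN : 3 ≤ finrank F N) {V : Type*} [AddCommGroup V] [Module ℂ V]
  {ρ : Representation ℂ (SpecialLinearGroup F N) V} {ψ : AddChar F ℂ}

theorem sl_E_smul {a : N} (b : N) {x : F} (hx : x ≠ 0) :
    (slSys hN).E ρ ψ (x • a) (x • b) = (slSys hN).E ρ ψ a b := by
  have e : ∀ f : Dual F N, f a = 0 → tv (x • a) f = tv a (x • f) := fun f hf => sl_ext fun y => by
    rw [tv_apply (by simp [hf]), tv_apply (by simp [hf])]; simp [smul_smul, mul_comm]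
  ext v
  simp only [TSys.mem_E]
  refine ⟨fun h f hf => ?_, fun h f hf => ?_⟩
  · have := h (x⁻¹ • f) (by simp [hf])
    change ρ (tv (x • a) (x⁻¹ • f)) v = _ at this
    rw [e _ (by simp [hf])] at this
    change ρ (tv a f) v = _
    simpa [hx] using this
  · have hf' : f a = 0 := by simpa [hx] using hf
    change ρ (tv (x • a) f) v = _
    rw [e f hf', map_smul]
    exact h (x • f) (by simp [hf'])

theorem sl_key (h3 : finrank F N = 3 → ∃ x : F, x ≠ 0 ∧ x ^ 3 ≠ 1) (h4 : finrank F N = 4 → ∃ x : F, x ≠ 0 ∧ x ^ 2 ≠ 1)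
    {a b c : N} (ha : a ≠ 0) (h1 : finrank ℂ ((slSys hN).E ρ ψ a b) = 1) (hc : c ≠ 0) {f : Dual F N}
    (fc : f c = 0) (fa : f a = 0) (fb : f b = 0) {v : V} (hv : v ∈ (slSys hN).E ρ ψ a b) : ρ (tv c f) v = v := by
  have hT : ∀ (c : N) (f : Dual F N), f c = 0 → f a = 0 → f b = 0 → tv c f ∈ stab ρ ((slSys hN).E ρ ψ a b) :=
    fun c f fc fa fb => TSys.mem_stab_of_fix ha (by change (tv c f).1 a = a; simp [tv_apply fc, fa])
      (by change (tv c f).1 b = b; simp [tv_apply fc, fb])
  rcases eq_or_ne f 0 with rfl | f0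
  · rw [show tv c (0 : Dual F N) = 1 from TSys.T_zero (D := slSys hN) hc]; simp
  by_cases hA : ∃ c', f c' = 0 ∧ c' ∉ Submodule.span F {a, b, c}
  · obtain ⟨c', fc', hc'⟩ := hA
    obtain ⟨f', g0, g1⟩ := exists_dual_span hc'
    have ga := g0 a (Submodule.subset_span (by simp))
    have gb := g0 b (Submodule.subset_span (by simp))
    have gc := g0 c (Submodule.subset_span (by simp))
    refine TSys.fix_of_conj h1 (hT c f' gc ga gb) (hT c' f fc' fa fb) ?_ hv
    rw [mul_inv_eq_iff_eq_mul]
    refine sl_ext fun x => ?_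
    simp only [sl_mul, tv_apply gc, tv_apply fc', tv_apply fc, map_add, map_smul, g1, fc]
    module
  push Not at hA
  have hk := Module.Dual.finrank_ker_add_one_of_ne_zero f0
  have hle : finrank F (LinearMap.ker f) ≤ finrank F (Submodule.span F {a, b, c}) := Submodule.finrank_mono hA
  have := finrank_triple_le (F := F) a b c
  obtain ⟨w, fw, -⟩ := LS.exists_both_ne_zero f0 f0
  have key : ∀ (g : N ≃ₗ[F] N) (s y z : F), LinearMap.det (g : N →ₗ[F] N) = 1 → s ≠ 0 → g a = s • a → g b = s • b →
      g c = y • c → (∀ x, z * f (g x) = f x) → y * z ≠ 1 → ρ (tv c f) v = v := fun g s y z hd hs e1 e2 e3 e4 hyz => by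
    obtain ⟨g', rfl⟩ := exists_sl g hd
    refine TSys.fix_of_scale (D := slSys hN) h1 hc fc hyz (g := g') (TSys.mem_stab_E ha ?_)
      (fun t => hT c (t • f) (by simp [fc]) (by simp [fa]) (by simp [fb])) (fun t => ?_) hv
    · change (slSys hN).E ρ ψ (g'.1 a) (g'.1 b) = _
      rw [e1, e2, sl_E_smul hN b hs]
    · rw [mul_inv_eq_iff_eq_mul]
      refine sl_ext fun x => ?_
      change g'.1 ((tv c (t • f)).1 x) = (tv c ((y * z * t) • f)).1 (g'.1 x)
      rw [tv_apply (by simp [fc]), tv_apply (by simp [fc]), map_add, map_smul, e3, LinearMap.smul_apply,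
        LinearMap.smul_apply, ← e4 x, smul_smul]
      congr 2
      simp only [smul_eq_mul]; ring
  rcases hN.eq_or_lt with e | e
  · obtain ⟨x, x0, hx⟩ := h3 e.symm
    obtain ⟨k, hk, hd⟩ := LS.exists_dil (((x ^ 3)⁻¹ - 1) • f) w (by simpa [fw] using x0)
    refine key (k.trans (LinearEquiv.smulOfNeZero F N x x0)) x x (x ^ 2) ?_ x0 (by simp [hk, fa])
      (by simp [hk, fb]) (by simp [hk, fc]) (fun y => ?_) (by rwa [← pow_succ'])
    · rw [LinearEquiv.coe_trans, LinearMap.det_comp, hd,
        show (LinearEquiv.smulOfNeZero F N x x0 : N →ₗ[F] N) = x • LinearMap.id from rfl, LinearMap.det_smul, ← e]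
      simp [fw, x0]
    · simp [hk, fw]; field_simp; ring
  · obtain ⟨x, x0, hx⟩ := h4 (by omega)
    have hcn : c ∉ Submodule.span F {a, b, w} := fun h => by
      obtain ⟨r, s, t, e⟩ := Submodule.mem_span_triple.1 h
      have ht : t = 0 := by simpa [fa, fb, fw, fc] using congrArg f e
      rw [ht, zero_smul, add_zero] at e
      have h2 : Submodule.span F {a, b, c} ≤ Submodule.span F {a, b} := Submodule.span_le.2 (by
        rintro _ (rfl | rfl | rfl)
        · exact Submodule.subset_span (by simp)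
        · exact Submodule.subset_span (by simp)
        · exact Submodule.mem_span_pair.2 ⟨r, s, e⟩)
      have := Submodule.finrank_mono h2
      have := finrank_pair_le (F := F) a b
      omega
    obtain ⟨g, g0, g1⟩ := exists_dual_span hcn
    have ga := g0 a (Submodule.subset_span (by simp))
    have gb := g0 b (Submodule.subset_span (by simp))
    have gw := g0 w (Submodule.subset_span (by simp))
    obtain ⟨k, hk, hd⟩ := LS.exists_dil ((x⁻¹ - 1) • f) w (by simpa [fw] using x0)
    obtain ⟨k', hk', hd'⟩ := LS.exists_dil ((x - 1) • g) c (by simpa [g1] using x0)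
    refine key (k.trans k') 1 x x ?_ one_ne_zero (by simp [hk, hk', fa, ga]) (by simp [hk, hk', fb, gb])
      (by simp [hk, hk', fc, g1, sub_smul]) (fun y => ?_) (by rwa [← sq])
    · rw [LinearEquiv.coe_trans, LinearMap.det_comp, hd, hd']
      simp [fw, g1, x0]
    · simp [hk, hk', fw, fc]; field_simp; ring

include hN in
theorem sl_min [Fintype F] [FiniteDimensional ℂ V] [ρ.IsIrreducible] (hV : 2 ≤ finrank ℂ V)
    (h3 : finrank F N = 3 → ¬ Fintype.card F - 1 ∣ 3) (h4 : finrank F N = 4 → ¬ Fintype.card F - 1 ∣ 2) :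
    Fintype.card F ^ finrank F N - Fintype.card F ≤ (Fintype.card F - 1) * finrank ℂ V := by
  have := Module.finite_of_finite F (M := N)
  have := Fintype.ofFinite N
  have := LS.finite_dual (F := F) (V := N)
  have := Fintype.ofFinite (Dual F N)
  obtain ⟨ψ, hψ⟩ := AddChar.exists_apply_ne_zero.2 (one_ne_zero (α := F))
  have hψ' : ψ ≠ 1 := fun e => hψ (by rw [e]; rfl)
  have : Nontrivial N := Module.nontrivial_of_finrank_pos (R := F) (by omega)
  obtain ⟨a, ha⟩ := exists_ne (0 : N)
  have hP : ∀ a : N, a ≠ 0 → ∀ d, (slSys hN).P a d ↔ d ∉ F ∙ a := fun a ha d =>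
    ⟨fun h => h.2.2.2, fun h => ⟨ha, fun e => h (e ▸ zero_mem _), trivial, h⟩⟩
  obtain ⟨b, -, hb⟩ := exists_notMem (L := F ∙ a) (M := ⊤) (by rw [finrank_top, finrank_span_singleton ha]; omega)
  have hab := (hP a ha b).2 hb
  have hq := Fintype.one_lt_card (α := F)
  have hc : Fintype.card N = Fintype.card F ^ finrank F N := Module.card_eq_pow_finrank
  have hcount : ∀ a : N, a ≠ 0 → (Finset.univ.filter ((slSys hN).P a)).card + Fintype.card F = Fintype.card N :=
    fun a ha => by
      rw [← TSys.card_line (F := F) ha, ← Finset.card_univ,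
        ← Finset.card_filter_add_card_filter_not (s := Finset.univ) (· ∈ F ∙ a), add_comm]
      congr 2
      ext d; simp [hP a ha]
  have hd := TSys.dim_count (ρ := ρ) hψ' hab fun d h h' => absurd ((hP a ha d).2 h) h'
  have hca := hcount a ha
  rcases Nat.lt_trichotomy (finrank ℂ ((slSys hN).E ρ ψ a b)) 1 with h | h | h
  · exfalso
    have hT : ∀ (c : N) (f : Dual F N), f c = 0 → tv c f ∈ ρ.ker := fun c f hf => by
      rcases eq_or_ne c 0 with rfl | hc
      · rw [show tv 0 f = 1 from sl_ext fun x => by simp [tv_apply hf]]; exact one_mem _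
      obtain ⟨d, -, hd⟩ := exists_notMem (L := F ∙ c) (M := ⊤) (by rw [finrank_top, finrank_span_singleton hc]; omega)
      have hcd := (hP c hc d).2 hd
      have h1 := TSys.dim_count (ρ := ρ) hψ' hcd fun d h h' => absurd ((hP c hc d).2 h) h'
      rw [hab.finrank_E hcd, Nat.lt_one_iff.1 h, mul_zero, add_zero] at h1
      have h2 := Submodule.eq_top_of_finrank_eq (Nat.eq_of_mul_eq_mul_left (by omega) h1).symm
      exact LinearMap.ext fun v => (TSys.mem_E.1 (h2.ge Submodule.mem_top) f hf).trans (by simp)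
    refine LS.ker_ne_top_of_irreducible ρ ‹_› hV (eq_top_iff.2 fun g _ => ?_)
    obtain ⟨g', hg', e⟩ := TvGen.mem_of_det_eq_one (ρ.ker.map SpecialLinearGroup.toLinearEquiv)
      (fun c f hf => ⟨hf, (tv c f).1, ⟨_, hT c f hf, rfl⟩, tv_apply hf⟩) g.1 (by
        rw [← LinearEquiv.coe_det, g.2]; rfl)
    exact (Subtype.ext e : g' = g) ▸ hg'
  · have h1 : (slSys hN).One ρ ψ := ⟨hψ', fun _ _ h' => (hab.finrank_E h').trans h,
      fun a' b' h' c hc _ _ f fc fa fb v hv => sl_key hN (fun e => exists_pow_ne (h3 e)) (fun e => exists_pow_ne (h4 e))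
        h'.1 ((hab.finrank_E h').trans h) hc fc fa fb hv⟩
    obtain ⟨v, l, hv⟩ := h1.exists_eig hab
    obtain ⟨e, he⟩ := hv.plane h1
    have ht := hv.total fun c hc => by
      obtain ⟨d, -, hd⟩ := exists_notMem (L := F ∙ c) (M := ⊤)
        (by rw [finrank_top, finrank_span_singleton hc]; omega)
      exact (hab.act ((hP c hc d).2 hd)).imp fun _ => And.left
    rw [← Finset.sum_filter_add_sum_filter_not _ (· ∈ Submodule.span F {a, b}), Finset.filter_filter,
      Finset.sum_congr rfl (s₁ := Finset.filter (· ∉ _) _) fun c hc => hv.mid h1 (by simpa using (Finset.mem_filter.1 hc).1)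
        trivial trivial (Finset.mem_filter.1 hc).2, Finset.sum_const, nsmul_eq_mul] at ht
    have c1 : (Finset.univ.filter (· ∈ (slSys hN).S)).card + 1 = Fintype.card N := by
      rw [← Finset.card_univ, ← Finset.card_erase_add_one (Finset.mem_univ (0 : N))]
      congr 2
      ext x
      simp only [Finset.mem_filter, Finset.mem_univ, true_and, Finset.mem_erase, and_true]; rfl
    have c2 : ((Finset.univ.filter (· ∈ (slSys hN).S)).filter (· ∉ Submodule.span F {a, b})).card +
        Fintype.card F ^ 2 = Fintype.card N := by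
      rw [← TSys.card_plane ha hb, ← Finset.card_univ,
        ← Finset.card_filter_add_card_filter_not (s := Finset.univ) (· ∈ Submodule.span F {a, b}), add_comm]
      congr 2
      ext x
      simp only [Finset.mem_filter, Finset.mem_univ, true_and]
      exact ⟨fun h => h.2, fun h => ⟨fun e : x = 0 => h (e ▸ zero_mem _), h⟩⟩
    obtain ⟨k, hk⟩ : ∃ k, finrank F N = k + 3 := ⟨_, (Nat.sub_add_cancel hN).symm⟩
    rw [h, mul_one] at hd
    rw [hc, hk] at c1 c2 hca
    rw [hk]
    have hd' := congrArg (Nat.cast : ℕ → ℂ) hd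
    have c1' := congrArg (Nat.cast : ℕ → ℂ) c1
    have c2' := congrArg (Nat.cast : ℕ → ℂ) c2
    have hca' := congrArg (Nat.cast : ℕ → ℂ) hca
    push_cast at hd' c1' c2' hca'
    have q0 : (Fintype.card F : ℂ) ≠ 0 := Nat.cast_ne_zero.2 Fintype.card_ne_zero
    have hR : (Fintype.card F : ℤ) ≤ Fintype.card F ^ (k + 1) := le_self_pow₀ (by omega) (by omega)
    have := sl_arith (q := Fintype.card F) (R := Fintype.card F ^ (k + 1)) (d := finrank ℂ V) (e := e) (by omega)
      (by omega) (by omega) ?_ hR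
    · zify [hq.le, Nat.le_self_pow (n := k + 3) (by omega) (Fintype.card F)]
      linear_combination this
    · have e1 : (finrank ℂ ((slSys hN).E ρ ψ a 0) : ℂ) =
          finrank ℂ V - (Fintype.card F * Fintype.card F ^ (k + 1) - 1) :=
        mul_left_cancel₀ q0 (by linear_combination -hd' - hca')
      rw [eq_sub_of_add_eq c1', eq_sub_of_add_eq c2', e1] at ht
      refine Int.cast_injective (α := ℂ) ?_
      push_cast
      field_simp at ht
      refine mul_left_cancel₀ q0 ?_
      linear_combination (-(e + Fintype.card F - 1 : ℂ)) * ht + Fintype.card F * (finrank ℂ V : ℂ) * he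
  · rw [← hc, ← hca, Nat.add_sub_cancel]
    nlinarith [Nat.sub_add_cancel hq.le]

end CfsgLib.ClDeg
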