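import Mathlib
import Cfsg.Agent.Lib.ClDeg.SL
import Cfsg.Agent.Lib.OrthE.Normal
import Cfsg.Agent.Lib.OrthE.Simple

/-!
# Orthogonal geometry for the class sum method: perps, counts, transitivity
-/

set_option autoImplicit false

namespace CfsgLib.ClDeg

open Module QuadraticMap CfsgLib.OrthE
open scoped _root_.Classical

variable {F N : Type*} [Field F] [AddCommGroup N] [Module F N] {Q : QuadraticForm F N}

variable (Q) in
/-- the vectors orthogonal to a set -/
def perp (s : Set N) : Submodule F N where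
  carrier := {x | ∀ y ∈ s, polar Q x y = 0}
  add_mem' {a b} ha hb y hy := by rw [polar_add_left, ha y hy, hb y hy, add_zero]
  zero_mem' y _ := polar_zero_left Q y
  smul_mem' c a ha y hy := by rw [polar_smul_left, ha y hy, smul_zero]

theorem mem_perp {s : Set N} {x : N} : x ∈ perp Q s ↔ ∀ y ∈ s, polar Q x y = 0 := Iff.rfl

theorem mem_perp1 {a x : N} : x ∈ perp Q {a} ↔ polar Q x a = 0 := by simp [mem_perp]

theorem mem_perp2 {a b x : N} : x ∈ perp Q {a, b} ↔ polar Q x a = 0 ∧ polar Q x b = 0 := by simp [mem_perp]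

theorem mem_perp3 {a b c x : N} :
    x ∈ perp Q {a, b, c} ↔ polar Q x a = 0 ∧ polar Q x b = 0 ∧ polar Q x c = 0 := by simp [mem_perp]

theorem mem_perp4 {a b c d x : N} : x ∈ perp Q {a, b, c, d} ↔
    polar Q x a = 0 ∧ polar Q x b = 0 ∧ polar Q x c = 0 ∧ polar Q x d = 0 := by simp [mem_perp]

theorem polar_eq_zero_of_span {s : Set N} {x y : N} (hx : x ∈ perp Q s) (hy : y ∈ Submodule.span F s) :
    polar Q x y = 0 :=
  (Submodule.span_le (p := LinearMap.ker (polarBilin Q x))).2 hx hy

theorem polar_self_of_sing {a : N} (ha : Q a = 0) : polar Q a a = 0 := by rw [polar_self', ha, mul_zero]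

theorem finrank_quad_le (a b c d : N) : finrank F (Submodule.span F {a, b, c, d}) ≤ 4 := by
  have := (finrank_span_le_card' (F := F) {a, b, c, d}).trans Finset.card_le_four
  rwa [Finset.coe_insert, Finset.coe_insert, Finset.coe_pair] at this

theorem sing_gen {X : Submodule F N} {e f : N} (h : Hyp Q e f) (he : e ∈ X) (hf : f ∈ X) (H : AddSubgroup N)
    (hH : ∀ u ∈ X, Q u = 0 → u ∈ H) {u : N} (hu : u ∈ X) : u ∈ H := by
  have key : ∀ u ∈ X, polar Q u e ≠ 0 → u ∈ H := fun u hu h0 => by
    have := add_mem (hH (u - (Q u / polar Q u e) • e) (sub_mem hu (X.smul_mem _ he)) (by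
      rw [Q_sub, Q_smul, polar_smul_right, h.he, smul_eq_mul]; field_simp; ring))
      (hH ((Q u / polar Q u e) • e) (X.smul_mem _ he) (by rw [Q_smul, h.he, mul_zero]))
    rwa [sub_add_cancel] at this
  by_cases h0 : polar Q u e = 0
  · simpa using sub_mem (key (u + f) (add_mem hu hf) (by simp [h0, h.hfe])) (hH f hf h.hf)
  · exact key u hu h0

section Fin

variable [FiniteDimensional F N] (hQ : Nondeg Q)

/-- the vector representing a functional -/
noncomputable def vec (f : Dual F N) : N := 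
  (LinearMap.BilinForm.toDual (polarBilin Q) ((nondeg_iff Q).1 hQ)).symm f

theorem polar_vec (f : Dual F N) (x : N) : polar Q (vec hQ f) x = f x :=
  LinearMap.BilinForm.apply_toDual_symm_apply (hB := (nondeg_iff Q).1 hQ) f x

theorem vec_eq {f : Dual F N} {u : N} (h : ∀ x, polar Q u x = f x) : vec hQ f = u :=
  sub_eq_zero.1 (hQ _ fun x => by rw [polar_sub_left, polar_vec, h, sub_self])

include hQ

theorem exists_polar_one {s : Set N} {y : N} (hy : y ∉ Submodule.span F s) : ∃ x ∈ perp Q s, polar Q x y = 1 := by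
  obtain ⟨f, h0, h1⟩ := exists_dual_span hy
  exact ⟨vec hQ f, fun z hz => by rw [polar_vec, h0 z (Submodule.subset_span hz)], by rw [polar_vec, h1]⟩

theorem finrank_perp (s : Set N) : finrank F (perp Q s) + finrank F (Submodule.span F s) = finrank F N := by
  have : perp Q s = LinearMap.BilinForm.orthogonal (polarBilin Q) (Submodule.span F s) := Submodule.ext fun x =>
    ⟨fun h y hy => (polar_comm Q y x).trans (polar_eq_zero_of_span h hy),
      fun h y hy => (polar_comm Q x y).trans (h y (Submodule.subset_span hy))⟩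
  rw [this, LinearMap.BilinForm.finrank_orthogonal ((nondeg_iff Q).1 hQ), Nat.sub_add_cancel (Submodule.finrank_le _)]

theorem exists_hyp_of_notMem {s : Set N} {z : N} (hz : z ∈ perp Q s) (h0 : Q z = 0) (h : z ∉ Submodule.span F s) :
    ∃ y ∈ perp Q s, Hyp Q z y := by
  obtain ⟨y, hy, e⟩ := exists_polar_one hQ h
  exact ⟨_, sub_mem hy (Submodule.smul_mem _ _ hz), hyp_of_polar h0 e⟩

omit hQ in
theorem exists_sing_notMem [Finite F] {X L : Submodule F N} (h : finrank F L + 3 ≤ finrank F X) :
    ∃ z ∈ X, z ∉ L ∧ Q z = 0 := by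
  obtain ⟨L', hL⟩ := L.exists_isCompl
  have h1 := Submodule.finrank_sup_add_finrank_inf_eq X L'
  have h2 := Submodule.finrank_add_eq_of_isCompl hL
  have h3 := Submodule.finrank_le (X ⊔ L')
  obtain ⟨z, hz, e⟩ := exists_singular (Q.comp (X ⊓ L').subtype) (by omega)
  exact ⟨z, z.2.1, fun h => hz (Subtype.ext (Submodule.disjoint_def.1 hL.disjoint _ h z.2.2)), e⟩

theorem exists_hyp_perp [Finite F] {s : Set N} (h : 2 * finrank F (Submodule.span F s) + 3 ≤ finrank F N) :
    ∃ z ∈ perp Q s, ∃ y ∈ perp Q s, z ∉ Submodule.span F s ∧ Hyp Q z y := by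
  have := finrank_perp hQ s
  obtain ⟨z, hz, h1, h0⟩ := exists_sing_notMem (Q := Q) (X := perp Q s) (L := Submodule.span F s) (by omega)
  obtain ⟨y, hy, e⟩ := exists_hyp_of_notMem hQ hz h0 h1
  exact ⟨z, hz, y, hy, h1, e⟩

theorem exists_E_pair [Finite F] (hn : 7 ≤ finrank F N) {a b a' b' : N} (ha : a ≠ 0) (hb : b ∉ F ∙ a) (ha' : a' ≠ 0)
    (hb' : b' ∉ F ∙ a') (e1 : Q a' = Q a) (e2 : Q b' = Q b) (e3 : polar Q a' b' = polar Q a b) :
    ∃ g : E Q, g.1.1 a = a' ∧ g.1.1 b = b' := by
  obtain ⟨k, k1, k2⟩ := LS.exists_equiv_two ha' hb' ha hb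
  obtain ⟨g, hg, h⟩ := Forms.witt_quad Q ((nondeg_iff Q).1 hQ) (Submodule.span F {a, b})
    (k.toLinearMap ∘ₗ Submodule.subtype _) (k.injective.comp Subtype.val_injective) fun x => by
      obtain ⟨s, t, e⟩ := Submodule.mem_span_pair.1 x.2
      simp [← e, k1, k2, Q_add, Q_smul, e1, e2, e3]
  have g1 : g a = a' := (h ⟨a, Submodule.subset_span (by simp)⟩).trans k1
  have g2 : g b = b' := (h ⟨b, Submodule.subset_span (by simp)⟩).trans k2
  have := finrank_pair_le (F := F) a b
  obtain ⟨z, hz, y, hy, -, hh⟩ := exists_hyp_perp hQ (s := {a, b}) (by omega)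
  have := E_normal (Q := Q)
  let φ := QuotientGroup.mk' (E Q)
  let H : Subgroup (O Q) := ((MulAction.stabilizer (O Q) a ⊓ MulAction.stabilizer (O Q) b).map φ).comap φ
  obtain ⟨s, hs, e⟩ : (⟨g, hg⟩ : O Q) ∈ H := mem_of_refl_of_siegel_fix hQ ⊥ H (fun x hx _ => by
      have hw : y + Q x • z ∈ perp Q {a, b} := add_mem hy (Submodule.smul_mem _ _ hz)
      rw [mem_perp2] at hw
      exact ⟨refl Q (y + Q x • z), ⟨refl_apply_of_orth ((polar_comm _ _ _).trans hw.1),
        refl_apply_of_orth ((polar_comm _ _ _).trans hw.2)⟩, hh.map_refl_eq φ hQ (hh.exists_nonsingular hQ (by omega))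
        (QuotientGroup.ker_mk' _).ge hx one_ne_zero (by rw [hh.Q_add_smul]; ring)⟩)
    (fun u v _ _ _ _ _ => ⟨1, one_mem _, ((QuotientGroup.eq_one_iff _).2 (eich_mem_E u v)).symm⟩) _ bot_le
  refine ⟨⟨⟨g, hg⟩ * s⁻¹, (QuotientGroup.eq_one_iff _).1 ?_⟩, ?_, ?_⟩
  · change φ _ = 1
    rw [map_mul, map_inv, e, mul_inv_cancel]
  · rw [O_mul_apply, O_inv_apply_eq s hs.1]; exact g1
  · rw [O_mul_apply, O_inv_apply_eq s hs.2]; exact g2

end Fin

/-! ### counts -/

variable [Fintype F] [Fintype N]

variable (Q) in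
/-- the number of vectors of a subspace with a given value -/
noncomputable def cnt (X : Submodule F N) (c : F) : ℕ := (Finset.univ.filter fun x => x ∈ X ∧ Q x = c).card

omit [Fintype F] in
theorem card_mem (X : Submodule F N) [Fintype F] :
    (Finset.univ.filter (· ∈ X)).card = Fintype.card F ^ finrank F X := by
  rw [← Module.card_eq_pow_finrank, Fintype.card_subtype]

theorem cnt_step {X X' : Submodule F N} {u y : N} (hu : u ∈ X) (h0 : Q u = 0) (hy : y ∈ X) (h1 : polar Q y u = 1)
    (hX : ∀ x, x ∈ X' ↔ x ∈ X ∧ polar Q x u = 0) {k : ℕ} (hk : finrank F X = k + 2) (c : F) :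
    cnt Q X c = cnt Q X' c + (Fintype.card F - 1) * Fintype.card F ^ k := by
  have h2 := LS.card_ker_mul (V := X) (polarBilin Q u ∘ₗ X.subtype)
    (fun t => ⟨t • ⟨y, hy⟩, by simp [polar_comm Q u, h1]⟩) 0
  have h3 : (Finset.univ.filter fun x => x ∈ X ∧ polar Q x u = 0).card * Fintype.card F =
      Fintype.card F ^ (k + 2) := by
    rw [← hk, ← Module.card_eq_pow_finrank, ← h2]
    congr 1
    exact (Finset.card_bij (fun x _ => x.1) (fun x hx => by simpa [polar_comm Q u] using hx)
      (fun _ _ _ _ => Subtype.ext) fun x hx => ⟨⟨x, (Finset.mem_filter.1 hx).2.1⟩, by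
        simpa [polar_comm Q u] using (Finset.mem_filter.1 hx).2.2, rfl⟩).symm
  have h4 : (Finset.univ.filter fun x => (x ∈ X ∧ Q x = c) ∧ ¬ polar Q x u = 0).card * Fintype.card F =
      (Finset.univ.filter fun x => x ∈ X ∧ ¬ polar Q x u = 0).card := by
    rw [← Finset.card_univ, ← Finset.card_product]
    refine Finset.card_bij (fun p _ => p.1 + p.2 • u) (fun p hp => ?_) (fun p hp p' hp' e => ?_) fun x hx => ?_
    · simp only [Finset.mem_product, Finset.mem_filter, Finset.mem_univ, true_and, and_true] at hp ⊢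
      exact ⟨add_mem hp.1.1 (X.smul_mem _ hu), by simpa [polar_self_of_sing h0] using hp.2⟩
    · simp only [Finset.mem_product, Finset.mem_filter, Finset.mem_univ, true_and, and_true] at hp hp'
      have e1 := congrArg Q e
      have e2 := congrArg (polar Q · u) e
      simp only [Q_add, Q_smul, h0, hp.1.2, hp'.1.2, polar_add_left, polar_smul_left, polar_smul_right,
        polar_self_of_sing h0, smul_eq_mul, mul_zero, add_zero] at e1 e2
      have e3 : p.2 = p'.2 := mul_right_cancel₀ hp.2 (by linear_combination e1 - p'.2 * e2)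
      rw [e3] at e
      exact Prod.ext (add_right_cancel e) e3
    · simp only [Finset.mem_filter, Finset.mem_univ, true_and] at hx
      refine ⟨(x - ((Q x - c) / polar Q x u) • u, (Q x - c) / polar Q x u), ?_, by simp⟩
      simp only [Finset.mem_product, Finset.mem_filter, Finset.mem_univ, true_and, and_true]
      refine ⟨⟨sub_mem hx.1 (X.smul_mem _ hu), ?_⟩, by simpa [polar_self_of_sing h0] using hx.2⟩
      have := hx.2
      rw [Q_sub, Q_smul, polar_smul_right, h0, smul_eq_mul]; field_simp; ring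
  have h5 := Finset.card_filter_add_card_filter_not (s := Finset.univ.filter (· ∈ X)) (polar Q · u = 0)
  have h6 := Finset.card_filter_add_card_filter_not (s := Finset.univ.filter fun x => x ∈ X ∧ Q x = c)
    (polar Q · u = 0)
  rw [Finset.filter_filter, Finset.filter_filter] at h5 h6
  rw [card_mem, hk] at h5
  rw [cnt, ← h6, cnt]
  congr 1
  · congr 1; ext x; simp only [Finset.mem_filter, hX]; tauto
  · have hq := Fintype.card_pos (α := F)
    refine Nat.eq_of_mul_eq_mul_right (Nat.mul_pos hq hq) ?_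
    zify [hq] at h3 h4 h5 ⊢
    linear_combination (Fintype.card F : ℤ) * h4 + Fintype.card F * h5 - h3

theorem cnt_perp_insert [FiniteDimensional F N] (hQ : Nondeg Q) {s : Set N} {u : N} (hu : u ∈ perp Q s)
    (h0 : Q u = 0) (h : u ∉ Submodule.span F s) {k : ℕ} (hk : finrank F N = finrank F (Submodule.span F s) + k + 2)
    {t : Set N} (ht : t = insert u s) (c : F) :
    cnt Q (perp Q s) c = cnt Q (perp Q t) c + (Fintype.card F - 1) * Fintype.card F ^ k := by
  obtain ⟨y, hy, e⟩ := exists_polar_one hQ h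
  have := finrank_perp hQ s
  exact cnt_step hu h0 hy e (fun x => by simp [ht, mem_perp, and_comm]) (by omega) c

omit [Fintype F] [Fintype N] in
theorem perp_empty' : perp Q (∅ : Set N) = ⊤ := eq_top_iff.2 fun _ _ _ h => h.elim

theorem cnt_top_eq [FiniteDimensional F N] (hQ : Nondeg Q) {a : N} (ha : a ≠ 0) (h0 : Q a = 0) {k : ℕ}
    (hk : finrank F N = k + 2) (c : F) :
    cnt Q ⊤ c = cnt Q (perp Q {a}) c + (Fintype.card F - 1) * Fintype.card F ^ k := by
  rw [← perp_empty' (Q := Q)]
  exact cnt_perp_insert hQ (fun _ h => h.elim) h0 (by simpa using ha)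
    (by rw [Submodule.span_empty, finrank_bot, zero_add, hk]) (by simp) c

theorem finrank_pair {a b : N} (ha : a ≠ 0) (hb : b ∉ F ∙ a) : finrank F (Submodule.span F {a, b}) = 2 := by
  have := TSys.card_plane ha hb
  rw [card_mem] at this
  exact Nat.pow_right_injective Fintype.one_lt_card this

theorem cnt_perp_nonsing [FiniteDimensional F N] (hQ : Nondeg Q) {b : N} (hb : Q b ≠ 0) {k : ℕ}
    (hk : finrank F N = 2 * k + 2) : cnt Q (perp Q {b}) 0 = Fintype.card F ^ (2 * k) := by
  have b0 : b ≠ 0 := fun e => hb (e ▸ Q.map_zero)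
  have h1 := finrank_perp hQ {b}
  rw [finrank_span_singleton b0] at h1
  by_cases h2 : (2 : F) = 0
  · have hbb : polar Q b b = 0 := by rw [polar_self', h2, zero_mul]
    have hq := Fintype.card_pos (α := F)
    refine Nat.eq_of_mul_eq_mul_right hq ?_
    rw [← pow_succ, ← show finrank F (perp Q {b}) = 2 * k + 1 by omega, ← card_mem, cnt, ← Finset.card_univ,
      ← Finset.card_product]
    refine Finset.card_bij (fun p _ => p.1 + p.2 • b) (fun p hp => ?_) (fun p hp p' hp' e => ?_) fun x hx => ?_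
    · simp only [Finset.mem_product, Finset.mem_filter, Finset.mem_univ, true_and, and_true, mem_perp1] at hp ⊢
      simp [hp.1, hbb]
    · simp only [Finset.mem_product, Finset.mem_filter, Finset.mem_univ, true_and, and_true, mem_perp1] at hp hp'
      have e1 := congrArg Q e
      simp only [Q_add, Q_smul, hp.1, hp.2, hp'.1, hp'.2, polar_smul_right, smul_zero, add_zero, zero_add] at e1
      have e3 : p.2 = p'.2 := sub_eq_zero.1 (pow_eq_zero_iff two_ne_zero |>.1 (mul_right_cancel₀ hb
        (by linear_combination e1 + (p'.2 * p'.2 - p.2 * p'.2) * Q b * h2)))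
      rw [e3] at e
      exact Prod.ext (add_right_cancel e) e3
    · simp only [Finset.mem_filter, Finset.mem_univ, true_and, mem_perp1] at hx
      obtain ⟨t, ht⟩ := Orth.isSquare_of_charTwo h2 (Q x / Q b)
      refine ⟨(x - t • b, t), ?_, by simp⟩
      simp only [Finset.mem_product, Finset.mem_filter, Finset.mem_univ, true_and, and_true, mem_perp1]
      refine ⟨by simp [hx, hbb], ?_⟩
      rw [Q_sub, Q_smul, polar_smul_right, hx, ← ht, smul_zero]
      field_simp
      linear_combination Q x * h2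
  · have := card_zeros_odd k (Q.comp (perp Q {b}).subtype) (fun x hx => Subtype.ext (by
      by_contra h0
      have : x.1 ∈ Submodule.span F {b} := by
        by_contra h
        obtain ⟨y, hy, e⟩ := exists_polar_one hQ h
        exact one_ne_zero (e.symm.trans ((polar_comm _ _ _).trans (hx ⟨y, hy⟩)))
      obtain ⟨t, e⟩ := Submodule.mem_span_singleton.1 this
      have h3 := mem_perp1.1 x.2
      rw [← e, polar_smul_left, polar_self', smul_eq_mul] at h3
      have : t = 0 := by simpa [h2, hb] using h3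
      exact h0 (by simp [← e, this]))) (by omega)
    rw [← Nat.card_eq_fintype_card, ← this, cnt, ← Fintype.card_subtype, ← Nat.card_eq_fintype_card]
    exact Nat.card_congr (Equiv.subtypeSubtypeEquivSubtypeInter _ (Q · = 0)).symm

theorem cnt_level [FiniteDimensional F N] (hQ : Nondeg Q) {c : F} (hc : c ≠ 0) {k : ℕ}
    (hk : finrank F N = 2 * k + 2) : (cnt Q ⊤ c : ℤ) * (cnt Q ⊤ 0 - Fintype.card F ^ (2 * k)) =
      (cnt Q ⊤ 0 - 1) * (Fintype.card F - 1) * Fintype.card F ^ (2 * k) := by
  have h := Finset.sum_comm (s := Finset.univ.filter fun x => x ∈ (⊤ : Submodule F N) ∧ Q x = c)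
    (t := Finset.univ.filter fun x => x ∈ (⊤ : Submodule F N) ∧ Q x = 0)
    (f := fun d x => if polar Q x d = 0 then (1 : ℤ) else 0)
  rw [Finset.sum_congr rfl (g := fun _ => (Fintype.card F : ℤ) ^ (2 * k)) fun d hd => ?_,
    ← Finset.add_sum_erase (Finset.univ.filter fun x => x ∈ (⊤ : Submodule F N) ∧ Q x = 0) _ (a := 0) (by simp),
    Finset.sum_congr rfl (s₁ := Finset.erase _ _)
      (g := fun _ => cnt Q ⊤ c - (Fintype.card F - 1) * (Fintype.card F : ℤ) ^ (2 * k)) fun x hx => ?_] at h
  · simp only [polar_zero_left, if_true, Finset.sum_const, nsmul_eq_mul, mul_one] at h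
    rw [Finset.card_erase_of_mem (by simp), Nat.cast_sub (Finset.card_pos.2 ⟨0, by simp⟩)] at h
    change (cnt Q ⊤ c : ℤ) * _ = cnt Q ⊤ c + (cnt Q ⊤ 0 - (1 : ℕ)) * _ at h
    push_cast at h
    linear_combination -h
  · simp only [Finset.mem_erase, Finset.mem_filter] at hx
    rw [cnt_top_eq hQ hx.1 hx.2.2.2 hk c, Finset.sum_boole, Finset.filter_filter, cnt]
    push_cast [Nat.cast_sub (Fintype.card_pos (α := F))]
    rw [add_sub_cancel_right]
    congr 2
    ext d; simp [mem_perp1, polar_comm Q x, and_comm]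
  · rw [Finset.sum_boole, Finset.filter_filter, ← Nat.cast_pow, ← cnt_perp_nonsing hQ (b := d)
      (by rw [(Finset.mem_filter.1 hd).2.2]; exact hc) hk, cnt]
    congr 2
    ext x; simp [mem_perp1, and_comm]

/-- sums of functions invariant under a translation -/
theorem sum_eq_card_mul (α : Dual F N) {u : N} (hu : α u ≠ 0) (f : N → ℂ) (h : ∀ c (t : F), f (c + t • u) = f c) :
    ∑ c, f c = Fintype.card F * ∑ c with α c = 0, f c := by
  rw [← Finset.sum_fiberwise Finset.univ α, ← Finset.card_univ, ← nsmul_eq_mul, ← Finset.sum_const]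
  refine Finset.sum_congr rfl fun s _ => (Finset.sum_equiv (Equiv.addRight ((s / α u) • u)) (fun c => ?_)
    fun c _ => (h c _).symm).symm
  simp [hu]

theorem split_sum (α : Dual F N) (φ : N → N → ℂ) (hs : ∀ u c, φ u c = φ c (-u))
    (ht : ∀ u c (t : F), φ u (c + t • u) = φ u c) :
    ∑ u, ∑ c, φ u c = ∑ u with α u = 0, ((Fintype.card F + 1) * ∑ c, φ u c -
      Fintype.card F * ∑ c with α c = 0, φ u c) := by
  rw [← Finset.sum_filter_add_sum_filter_not _ (α · = 0), Finset.sum_congr rfl (s₁ := Finset.filter (¬ α · = 0) _)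
    fun u hu => sum_eq_card_mul α (by simpa using hu) _ (ht u), ← Finset.mul_sum,
    Finset.sum_comm (s := Finset.filter (¬ α · = 0) _), Finset.mul_sum, ← Finset.sum_add_distrib]
  refine Finset.sum_congr rfl fun u _ => ?_
  rw [Finset.sum_equiv (Equiv.neg N) (t := Finset.univ.filter (¬ α · = 0)) (g := φ u) (by simp) fun c _ => hs c u,
    ← Finset.sum_filter_add_sum_filter_not Finset.univ (α · = 0)]
  ring

end CfsgLib.ClDeg
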