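import Mathlib
import Cfsg.Agent.Lib.ClDeg.OGeom

/-!
# Eichler groups: eigenvectors of multiplicity one are fixed by the stabiliser
-/

set_option autoImplicit false

namespace CfsgLib.ClDeg

open Module QuadraticMap CfsgLib.OrthE CfsgLib.MinDeg
open scoped _root_.Classical

theorem eq_zero_of_psi {F : Type*} [Field F] {ψ : AddChar F ℂ} (hψ : ψ ≠ 1) {c : F} (h : ∀ t, ψ (t * c) = 1) :
    c = 0 := by_contra fun hc => (exists_psi_ne hψ hc).elim fun t ht => ht (h t)

namespace TSys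

variable {F N G : Type*} [Field F] [AddCommGroup N] [Module F N] [Group G] {D : TSys F N G} {V : Type*}
  [AddCommGroup V] [Module ℂ V] {ρ : Representation ℂ G V} {ψ : AddChar F ℂ} [Fintype (Dual F N)]

variable (D ρ ψ) in
/-- an eigenvector and its coefficient functional, for any character -/
structure Eig0 (a b : N) (v : V) (l : V →ₗ[ℂ] ℂ) : Prop where
  ctr : a ∈ D.S
  mem : v ∈ D.E ρ ψ a b
  l_self : l v = 1
  π_eq : ∀ x, D.π ρ ψ a b x = l x • v

theorem exists_eig0 {a b : N} (ha : a ∈ D.S) (h : finrank ℂ (D.E ρ ψ a b) = 1) : ∃ v l, D.Eig0 ρ ψ a b v l := by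
  obtain ⟨v, hv, e⟩ := exists_span_of_finrank_eq_one h
  obtain ⟨f, hf⟩ := LS.exists_dual_one (F := ℂ) hv
  have hm : v ∈ D.E ρ ψ a b := e ▸ Submodule.mem_span_singleton_self v
  refine ⟨v, f ∘ₗ D.π ρ ψ a b, ha, hm, by simp [π_eq_self hm, hf], fun x => ?_⟩
  obtain ⟨c, hc⟩ := Submodule.mem_span_singleton.1 (e ▸ π_mem ha b x)
  simp [← hc, hf]

namespace Eig0

variable {a b : N} {v : V} {l : V →ₗ[ℂ] ℂ} (h : D.Eig0 ρ ψ a b v l)
include h

theorem ne_zero : v ≠ 0 := fun e => by simpa [e] using h.l_self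

theorem l_apply (hψ : ψ ≠ 1) {g : G} (hg : D.act g a = a) (hb : D.act g b - b ∉ F ∙ a) : l (ρ g v) = 0 :=
  (smul_eq_zero.1 ((h.π_eq _).symm.trans (π_eq_zero hψ h.ctr hb
    (by simpa [hg] using apply_mem_E g h.ctr h.mem)))).resolve_right h.ne_zero

theorem total [Fintype N] [FiniteDimensional ℂ V] [ρ.IsIrreducible] (htr : ∀ c ∈ D.S, ∃ g, D.act g a = c) :
    (∑ c with c ∈ D.S, l (D.π ρ ψ c 0 v)) * finrank ℂ V =
      (Finset.univ.filter (· ∈ D.S)).card * finrank ℂ (D.E ρ ψ a 0) := by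
  set s := Finset.univ.filter (· ∈ D.S) with hs
  have hs' : ∀ c, c ∈ s ↔ c ∈ D.S := fun c => by simp [hs]
  obtain ⟨κ, hκ⟩ := CharDeg.exists_eq_smul_of_comm ρ (∑ c ∈ s, D.π ρ ψ c 0) fun g => LinearMap.ext fun x => by
    simp only [End.mul_apply, LinearMap.sum_apply, map_sum]
    refine (Finset.sum_equiv (D.act g).toEquiv (fun c => ?_) fun c hc => ?_).symm
    · rw [hs', hs']
      exact ⟨D.act_S g c, fun e => by simpa [act_inv] using D.act_S g⁻¹ _ e⟩
    · rw [apply_π g ((hs' c).1 hc), map_zero]; rfl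
  have h2 : ∑ c ∈ s, l (D.π ρ ψ c 0 v) = κ := by
    rw [← map_sum, ← LinearMap.sum_apply, hκ]; simp [h.l_self]
  have h3 := sum_finrank_of_proj s (D.π ρ ψ · 0) (D.E ρ ψ · 0) (W := ⊤) (fun c hc => π_mem ((hs' c).1 hc) 0)
    (fun c _ v => π_eq_self) (fun _ _ _ _ => trivial) (κ := κ) fun x _ => by
      rw [← LinearMap.sum_apply, hκ]; rfl
  rw [h2, ← finrank_top ℂ V, ← h3, ← nsmul_eq_mul, ← Finset.sum_const]
  refine Finset.sum_congr rfl fun c hc => ?_
  obtain ⟨g, rfl⟩ := htr c ((hs' c).1 hc)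
  have := finrank_inf_E (ρ := ρ) (ψ := ψ) (W := ⊤) (g := g) (fun _ _ => trivial) (fun _ _ => trivial) h.ctr 0
  rw [map_zero] at this
  rw [this, top_inf_eq]

theorem mid [Fintype F] (hψ : ψ ≠ 1) {c : N} (hc : c ∈ D.S) (ha : a ∈ D.C c) (hb : b ∈ D.C c)
    (hab : b ∉ F ∙ a) (hL : c ∉ Submodule.span F {a, b}) (h2 : ∀ x : F, x ≠ 0 → D.π ρ ψ c (x • a) v = 0)
    (hk : ∀ f : Dual F N, f c = 0 → f a = 0 → f b = 0 → ρ (D.T c f) v = v) :
    l (D.π ρ ψ c 0 v) = (Fintype.card F : ℂ)⁻¹ := by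
  have a0 := D.ne_zero a h.ctr
  have ind : ∀ x y z : F, x • a + y • b + z • c = 0 → x = 0 ∧ y = 0 ∧ z = 0 := fun x y z e => by
    have hz : z = 0 := by_contra fun hz => hL (Submodule.mem_span_pair.2 ⟨-(z⁻¹ * x), -(z⁻¹ * y), by
      rw [← one_smul F c, ← inv_mul_cancel₀ hz, mul_smul, eq_neg_of_add_eq_zero_right e]
      module⟩)
    rw [hz, zero_smul, add_zero] at e
    have hy : y = 0 := by_contra fun hy => hab (Submodule.mem_span_singleton.2 ⟨-(y⁻¹ * x), by
      rw [← one_smul F b, ← inv_mul_cancel₀ hy, mul_smul, eq_neg_of_add_eq_zero_right e]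
      module⟩)
    rw [hy, zero_smul, add_zero] at e
    exact ⟨(smul_eq_zero.1 e).resolve_right a0, hy, hz⟩
  obtain ⟨fa, fa0, fa1⟩ := exists_dual_span (L := Submodule.span F {b, c}) (x := a) fun e => by
    obtain ⟨y, z, e⟩ := Submodule.mem_span_pair.1 e
    simpa using (ind (-1) y z (by rw [add_assoc, e]; simp)).1
  obtain ⟨fb, fb0, fb1⟩ := exists_dual_span (L := Submodule.span F {a, c}) (x := b) fun e => by
    obtain ⟨y, z, e⟩ := Submodule.mem_span_pair.1 e
    simpa using (ind y (-1) z (by rw [add_right_comm, e]; simp)).2.1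
  have fab := fa0 b (Submodule.subset_span (by simp))
  have fac := fa0 c (Submodule.subset_span (by simp))
  have fba := fb0 a (Submodule.subset_span (by simp))
  have fbc := fb0 c (Submodule.subset_span (by simp))
  have h3 : ∀ f : Ann F c, f.1 a = 0 → l (ρ (D.T c f) v) = if f.1 b = 0 then 1 else 0 := fun f hf => by
    split_ifs with e
    · rw [hk f f.2 hf e, h.l_self]
    · refine h.l_apply hψ (by rw [D.T_act c hc f.1 f.2 a ha, hf, zero_smul, add_zero]) fun e' => ?_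
      rw [D.T_act c hc f.1 f.2 b hb, add_sub_cancel_left] at e'
      obtain ⟨z, e'⟩ := Submodule.mem_span_singleton.1 e'
      exact e (ind (-z) 0 _ (by simp [← e'])).2.2
  have h4 := LS.card_ker_mul (V := Ann F c) (LinearMap.prod (Dual.eval F N a ∘ₗ (Ann F c).subtype)
    (Dual.eval F N b ∘ₗ (Ann F c).subtype)) (fun p => ⟨⟨p.1 • fa + p.2 • fb, by simp [fac, fbc]⟩, by
      simp [fa1, fab, fba, fb1]⟩) 0
  have q0 : (Fintype.card F : ℂ) ≠ 0 := Nat.cast_ne_zero.2 Fintype.card_ne_zero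
  have M0 : (Fintype.card (Ann F c) : ℂ) ≠ 0 := Nat.cast_ne_zero.2 Fintype.card_ne_zero
  have h5 : D.π ρ ψ c 0 v = ∑ x : F, D.π ρ ψ c (x • a) v := by
    rw [Finset.sum_eq_single 0 (fun x _ => h2 x) (by simp), zero_smul]
  rw [h5]
  simp only [π, pj_apply, map_sum, map_smul, chr_apply, smul_eq_mul]
  rw [← Finset.mul_sum, Finset.sum_comm, Finset.sum_congr rfl fun (f : Ann F c) _ => show
    ∑ x : F, ψ (x * (-f).1 a) * l (ρ (D.T c f) v) = if f.1 a = 0 ∧ f.1 b = 0 then (Fintype.card F : ℂ) else 0 by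
      rw [← Finset.sum_mul, AddChar.sum_mulShift _ (AddChar.IsPrimitive.of_ne_one hψ)]
      by_cases e : f.1 a = 0
      · simp [e, h3 f e]
      · simp [e], ← Finset.sum_filter, Finset.sum_const, nsmul_eq_mul]
  have h6 : ((Finset.univ.filter fun f : Ann F c => f.1 a = 0 ∧ f.1 b = 0).card : ℂ) *
      (Fintype.card F * Fintype.card F) = Fintype.card (Ann F c) := by
    rw [← h4, Fintype.card_prod]
    push_cast
    congr 3
    ext f; simp
  field_simp
  linear_combination h6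

end Eig0

end TSys

variable {F N : Type*} [Field F] [AddCommGroup N] [Module F N] {Q : QuadraticForm F N}

variable (Q) in
/-- the Eichler transformation as an element of the Eichler group -/
noncomputable def ei (c u : N) : E Q := ⟨eich Q c u, eich_mem_E c u⟩

theorem ei_conj (g : E Q) (c u : N) : g * ei Q c u * g⁻¹ = ei Q (g.1.1 c) (g.1.1 u) :=
  Subtype.ext (conj_eich g.1 c u)

theorem ei_add {c u w : N} (hc : Q c = 0) (hu : polar Q c u = 0) (hw : polar Q c w = 0) :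
    ei Q c (u + w) = ei Q c u * ei Q c w := Subtype.ext (eich_mul hc hu hw).symm

theorem ei_zero (c : N) : ei Q c 0 = 1 := Subtype.ext (eich_zero_right c)

theorem ei_neg (c u : N) : ei Q c (-u) = (ei Q c u)⁻¹ := Subtype.ext (eich_neg c u)

theorem ei_swap {c u : N} (hc : Q c = 0) (hu : Q u = 0) (h : polar Q c u = 0) : ei Q c u = ei Q u (-c) :=
  Subtype.ext ((eich_swap hu hc ((polar_comm _ _ _).trans h)).trans (eich_neg u c).symm)

variable [FiniteDimensional F N] [Finite F] (hQ : Nondeg Q) (hn : 7 ≤ finrank F N)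

/-- the Eichler groups of an orthogonal group -/
noncomputable def oSys : TSys F N (E Q) where
  act := (O Q).subtype.comp (E Q).subtype
  S := {a | Q a = 0 ∧ a ≠ 0}
  C a := perp Q {a}
  T c f := ei Q c (vec hQ f)
  ne_zero _ h := h.2
  mem_C _ h := mem_perp1.2 (polar_self_of_sing h.1)
  C_symm _ _ _ _ h := mem_perp1.2 ((polar_comm _ _ _).trans (mem_perp1.1 h))
  comb a ha b hb h x hx h0 := by
    obtain ⟨s, t, rfl⟩ := Submodule.mem_span_pair.1 hx
    exact ⟨by simp [Q_add, Q_smul, ha.1, hb.1, polar_comm Q a, mem_perp1.1 h], h0⟩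
  act_S g a ha := ⟨(O_map g.1 a).trans ha.1, O_apply_ne_zero g.1 ha.2⟩
  T_add a ha f f' h h' := by
    rw [← ei_add ha.1 (by rw [polar_comm, polar_vec, h]) (by rw [polar_comm, polar_vec, h']),
      vec_eq hQ (u := vec hQ f + vec hQ f') fun x => by simp [polar_vec]]
  T_conj g a _ f _ := by
    rw [ei_conj]
    exact congrArg (ei Q _) (vec_eq hQ fun x => by rw [O_polar_left, polar_vec]; rfl).symm
  T_act a ha f h x hx := by
    rw [← polar_vec hQ f x, polar_comm]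
    exact eich_apply_of_orth_left ha.1 (by rw [polar_comm, polar_vec, h]) (mem_perp1.1 hx)
  trans a ha b hb h h0 a' ha' b' hb' h' h0' := exists_E_pair hQ hn ha.2 h0 ha'.2 h0' (ha'.1.trans ha.1.symm)
    (hb'.1.trans hb.1.symm) (by rw [polar_comm, mem_perp1.1 h', polar_comm, mem_perp1.1 h])

variable {hQ hn} {V : Type*} [AddCommGroup V] [Module ℂ V] {ρ : Representation ℂ (E Q) V} {ψ : AddChar F ℂ}

theorem oSys_T (c u : N) : (oSys hQ hn).T c (polarBilin Q u) = ei Q c u :=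
  congrArg (ei Q c) (vec_eq hQ fun _ => rfl)

theorem mem_oE {a d : N} {v : V} : v ∈ (oSys hQ hn).E ρ ψ a d ↔
    ∀ u, polar Q u a = 0 → ρ (ei Q a u) v = ψ (polar Q u d) • v := by
  rw [TSys.mem_E]
  exact ⟨fun h u hu => oSys_T (hQ := hQ) (hn := hn) a u ▸ h (polarBilin Q u) hu,
    fun h f hf => polar_vec hQ f d ▸ h _ ((polar_vec hQ f a).trans hf)⟩

theorem oE_eq_bot (hψ : ψ ≠ 1) {a d : N} (ha : Q a = 0) (h : polar Q d a ≠ 0) : (oSys hQ hn).E ρ ψ a d = ⊥ := by
  obtain ⟨t, ht⟩ := exists_psi_ne hψ h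
  refine eq_bot_iff.2 fun v hv => ?_
  have := mem_oE.1 hv (t • a) (by simp [polar_self_of_sing ha])
  rw [show ei Q a (t • a) = 1 from Subtype.ext (eich_smul_self t a), map_one, polar_smul_left, polar_comm] at this
  exact eq_zero_of_smul_eq this.symm ht

theorem oE_smul {a : N} (ha : Q a = 0) (d : N) {x : F} (hx : x ≠ 0) :
    (oSys hQ hn).E ρ ψ (x • a) (x • d) = (oSys hQ hn).E ρ ψ a d := by
  have e : ∀ u, polar Q u a = 0 → ei Q (x • a) u = ei Q a (x • u) := fun u hu =>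
    Subtype.ext (eich_smul_left x ha ((polar_comm _ _ _).trans hu))
  ext v
  simp only [mem_oE]
  refine ⟨fun h u hu => ?_, fun h u hu => ?_⟩
  · have := h (x⁻¹ • u) (by simp [hu])
    rw [e _ (by simp [hu])] at this
    simpa [hx] using this
  · have hu' : polar Q u a = 0 := by simpa [hx] using hu
    rw [e u hu']
    simpa using h (x • u) (by simp [hu'])

section Key

variable {a b : N} (ha : a ∈ (oSys hQ hn).S) (h1 : finrank ℂ ((oSys hQ hn).E ρ ψ a b) = 1)
  {v : V} (hv : v ∈ (oSys hQ hn).E ρ ψ a b)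

include ha in
theorem ei_mem_stab {c u : N} (hc : c ∈ perp Q {a, b}) (hu : u ∈ perp Q {a, b}) :
    ei Q c u ∈ stab ρ ((oSys hQ hn).E ρ ψ a b) := by
  rw [mem_perp2, polar_comm, polar_comm Q _ b] at hc hu
  exact TSys.mem_stab_of_fix ha (eich_apply_of_orth hc.1 hu.1) (eich_apply_of_orth hc.2 hu.2)

include ha h1 hv

theorem fix_small {x c : N} (hx : Q x = 0) (hc : Q c = 0) (hxc : polar Q x c = 0) (hx' : x ∈ perp Q {a, b})
    (hc' : c ∈ perp Q {a, b}) (hd : 2 * finrank F (Submodule.span F {a, b, x, c}) < finrank F N) :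
    ρ (ei Q x c) v = v := by
  have := finrank_perp hQ {a, b, x, c}
  obtain ⟨w, hw, hw'⟩ := exists_notMem (L := Submodule.span F {a, b, x, c}) (M := perp Q {a, b, x, c}) (by omega)
  obtain ⟨u, hu, e⟩ := exists_polar_one hQ hw'
  rw [mem_perp4] at hu hw
  refine TSys.fix_of_conj h1 (ei_mem_stab ha hc' (mem_perp2.2 ⟨hw.1, hw.2.1⟩))
    (ei_mem_stab ha hx' (mem_perp2.2 ⟨hu.1, hu.2.1⟩)) ?_ hv
  rw [ei_conj, ← ei_add hx ((polar_comm _ _ _).trans hu.2.2.1) hxc]
  congr 1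
  · exact eich_apply_of_orth hxc ((polar_comm _ _ _).trans hw.2.2.1)
  · exact (eich_apply_of_orth_left hc ((polar_comm _ _ _).trans hw.2.2.2) hu.2.2.2).trans (by rw [e, one_smul])

theorem key_big (h9 : 9 ≤ finrank F N) {c u : N} (hc : Q c = 0) (hc' : c ∈ perp Q {a, b})
    (hu : u ∈ perp Q {a, b, c}) : ρ (ei Q c u) v = v := by
  have := finrank_triple_le (F := F) a b c
  obtain ⟨z, hz, y, hy, -, hh⟩ := exists_hyp_perp hQ (s := {a, b, c}) (by omega)
  let H : AddSubgroup N :=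
    { carrier := {u | polar Q c u = 0 ∧ ρ (ei Q c u) v = v}
      add_mem' := fun {x y} hx hy => ⟨by simp [hx.1, hy.1], by
        rw [ei_add hc hx.1 hy.1, map_mul, End.mul_apply, hy.2, hx.2]⟩
      zero_mem' := ⟨by simp, by simp [ei_zero]⟩
      neg_mem' := fun {x} hx => ⟨by simp [hx.1], ei_neg (Q := Q) c x ▸ (fixer ρ v).inv_mem hx.2⟩ }
  refine (sing_gen hh hz hy H (fun x hx h0 => ?_) hu).2
  rw [mem_perp3] at hx
  have := finrank_quad_le (F := F) a b c x
  have e := (polar_comm _ _ _).trans hx.2.2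
  exact ⟨e, fix_small ha h1 hv hc h0 e hc' (mem_perp2.2 ⟨hx.1, hx.2.1⟩) (by omega)⟩

theorem key_tor {x : F} (x0 : x ≠ 0) (hx : x ^ 2 ≠ 1) {c u : N} (hc : Q c = 0) (hc' : c ∈ perp Q {a, b})
    (h0 : c ∉ Submodule.span F {a, b}) (hu : u ∈ perp Q {a, b, c}) : ρ (ei Q c u) v = v := by
  obtain ⟨y, hy, hh⟩ := exists_hyp_of_notMem hQ hc' hc h0
  have := E_normal (Q := Q)
  have hE : tor Q c y (x * x) ∈ E Q := (QuotientGroup.eq_one_iff _).1 (hh.map_tor_sq (QuotientGroup.mk' (E Q)) hQ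
    (hh.exists_nonsingular hQ (by omega)) (QuotientGroup.ker_mk' _).ge x0)
  rw [mem_perp3] at hu
  have hc2 := mem_perp2.1 hc'
  have hy2 := mem_perp2.1 hy
  have e : ei Q c u = ei Q c (pr Q c y u) := Subtype.ext (hh.eich_eq_pr ((polar_comm _ _ _).trans hu.2.2))
  have hT : ∀ t : F, (oSys hQ hn).T c (t • polarBilin Q (pr Q c y u)) = ei Q c (t • pr Q c y u) := fun t => by
    rw [← map_smul, oSys_T]
  rw [e, ← oSys_T (hQ := hQ) (hn := hn)]
  refine TSys.fix_of_scale (D := oSys hQ hn) h1 ⟨hc, hh.e_ne⟩ (hh.pr_e u) (s := x * x) (by rwa [← pow_two])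
    (g := ⟨_, hE⟩) (TSys.mem_stab_of_fix ha
      (tor_orth ((polar_comm _ _ _).trans hc2.1) ((polar_comm _ _ _).trans hy2.1) _)
      (tor_orth ((polar_comm _ _ _).trans hc2.2) ((polar_comm _ _ _).trans hy2.2) _)) (fun t => ?_) (fun t => ?_) hv
  · rw [hT]
    exact ei_mem_stab ha hc' (Submodule.smul_mem _ _ (sub_mem (sub_mem (mem_perp2.2 ⟨hu.1, hu.2.1⟩)
      (Submodule.smul_mem _ _ hc')) (Submodule.smul_mem _ _ hy)))
  · rw [hT, hT, mul_smul (x * x)]
    exact Subtype.ext (hh.conj_tor_eich (mul_ne_zero x0 x0) (by simp [hh.pr_e]) (by simp [hh.pr_f]))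

theorem key_sing [Fintype F] [Fintype N] [Fintype (Dual F N)] (hψ : ψ ≠ 1) (hb : Q b = 0) (hab : polar Q a b = 0)
    (hH : (∃ x : F, x ≠ 0 ∧ x ^ 2 ≠ 1) ∨
      ∀ M : Submodule F N, (∀ w ∈ M, Q w = 0) → 2 * finrank F M < finrank F N)
    {c u : N} (hc : c ∈ (oSys hQ hn).S) (hc' : c ∈ perp Q {a, b}) (hu : u ∈ perp Q {a, b, c})
    (honly : ∀ d, Q d ≠ 0 → (oSys hQ hn).E ρ ψ c d = ⊥) : ρ (ei Q c u) v = v := by
  by_cases h0 : (∃ x : F, x ≠ 0 ∧ x ^ 2 ≠ 1) ∧ c ∉ Submodule.span F {a, b}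
  · obtain ⟨⟨x, x0, hx⟩, h0⟩ := h0
    exact key_tor ha h1 hv x0 hx hc.1 hc' h0 hu
  have hc2 := mem_perp2.1 hc'
  have hs : ∀ y ∈ perp Q {a, b, c}, Q y = 0 → ρ (ei Q c y) v = v := fun y hy e => by
    rw [mem_perp3] at hy
    refine fix_small ha h1 hv hc.1 e ((polar_comm _ _ _).trans hy.2.2) hc' (mem_perp2.2 ⟨hy.1, hy.2.1⟩) ?_
    by_cases h2 : c ∈ Submodule.span F {a, b}
    · have := finrank_triple_le (F := F) a b y
      have := Submodule.finrank_mono (Submodule.span_le (p := Submodule.span F {a, b, y}) (s := {a, b, c, y}).2 (by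
        rintro z (rfl | rfl | rfl | rfl)
        · exact Submodule.subset_span (by simp)
        · exact Submodule.subset_span (by simp)
        · exact Submodule.span_mono (by rintro _ (rfl | rfl) <;> simp) h2
        · exact Submodule.subset_span (by simp)))
      omega
    · refine (hH.resolve_left fun h => h0 ⟨h, h2⟩) _ fun w hw => ?_
      obtain ⟨r, w', hw', rfl⟩ := Submodule.mem_span_insert.1 hw
      obtain ⟨r1, w'', hw'', rfl⟩ := Submodule.mem_span_insert.1 hw'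
      obtain ⟨r2, r3, rfl⟩ := Submodule.mem_span_pair.1 hw''
      simp [Q_add, Q_smul, ha.1, hb, hc.1, e, hab, polar_comm Q a c, polar_comm Q b c, polar_comm Q a y,
        polar_comm Q b y, polar_comm Q c y, hc2, hy]
  rcases eq_or_ne v 0 with rfl | v0
  · simp
  obtain ⟨d, hd⟩ : ∃ d, (oSys hQ hn).π ρ ψ c d v ≠ 0 := by
    by_contra! h
    have := TSys.sum_π (ρ := ρ) hψ hc v
    simp only [h, Finset.sum_const_zero] at this
    exact v0 ((smul_eq_zero.1 this.symm).resolve_left (by simp))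
  have hE : (oSys hQ hn).E ρ ψ c d ≠ ⊥ := fun e => hd ((Submodule.eq_bot_iff _).1 e _ (TSys.π_mem hc d v))
  have hθ : ∀ y ∈ perp Q {a, b, c}, ρ (ei Q c y) v = ψ (polar Q y d) • v := fun y hy => by
    rw [mem_perp3] at hy
    obtain ⟨w, -, e⟩ := exists_span_of_finrank_eq_one h1
    obtain ⟨θ, hθ⟩ := exists_smul_of_mem_stab (e ▸ ei_mem_stab (ρ := ρ) (ψ := ψ) ha hc' (mem_perp2.2 ⟨hy.1, hy.2.1⟩))
    obtain ⟨s, rfl⟩ := Submodule.mem_span_singleton.1 (e ▸ hv)
    have h2 : ρ (ei Q c y) (s • w) = θ • s • w := by rw [map_smul, hθ, smul_comm]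
    have := TSys.π_T (ρ := ρ) (ψ := ψ) hc d (f := polarBilin Q y) hy.2.2 (s • w)
    rw [oSys_T, h2, map_smul] at this
    rw [h2, smul_left_injective ℂ hd this]; rfl
  have h3 : ∀ y ∈ perp Q {a, b, c}, Q y = 0 → polar Q y d = 0 := fun y hy e => eq_zero_of_psi hψ fun t => by
    have := (hθ _ (Submodule.smul_mem _ t hy)).symm.trans (hs _ (Submodule.smul_mem _ t hy) (by simp [Q_smul, e]))
    by_contra h
    exact v0 (eq_zero_of_smul_eq this (by simpa using h))
  have hd0 : Q d = 0 := by_contra fun e => hE (honly d e)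
  have hdX : d ∈ perp Q {a, b, c} := mem_perp3.2 ⟨(polar_comm _ _ _).trans (h3 a (mem_perp3.2
      ⟨polar_self_of_sing ha.1, hab, (polar_comm _ _ _).trans hc2.1⟩) ha.1),
    (polar_comm _ _ _).trans (h3 b (mem_perp3.2
      ⟨(polar_comm _ _ _).trans hab, polar_self_of_sing hb, (polar_comm _ _ _).trans hc2.2⟩) hb),
    by_contra fun e => hE (oE_eq_bot hψ hc.1 e)⟩
  have hdY : d ∈ Submodule.span F {a, b, c} := by
    by_contra h
    obtain ⟨y, hy, hh⟩ := exists_hyp_of_notMem hQ hdX hd0 h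
    exact one_ne_zero (hh.hfe.symm.trans (h3 y hy hh.hf))
  rw [hθ u hu, polar_eq_zero_of_span hu hdY]; simp

end Key

end CfsgLib.ClDeg
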