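import Mathlib
import Cfsg.Agent.Lib.ClDeg.OKey

/-!
# The sum of the long root elements evaluated on an eigenvector
-/

set_option autoImplicit false

namespace CfsgLib.ClDeg

open Module QuadraticMap CfsgLib.OrthE CfsgLib.MinDeg
open scoped _root_.Classical

variable {F N : Type*} [Field F] [AddCommGroup N] [Module F N] {Q : QuadraticForm F N} [Fintype F] [Fintype N]
  {ψ : AddChar F ℂ}

variable (Q ψ) in
/-- the character sum over the singular vectors of a perp -/
noncomputable def cs (u d : N) : ℂ := ∑ c with c ∈ perp Q {u} ∧ Q c = 0, ψ (polar Q c d)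

omit [Fintype F] in
theorem cs_act (g : O Q) (u d : N) : cs Q ψ (g.1 u) (g.1 d) = cs Q ψ u d :=
  (Finset.sum_equiv g.1.toEquiv (fun c => by simp [mem_perp1, O_polar, O_map]) fun c _ => by
    simp [O_polar]).symm

omit [Fintype F] in
theorem cs_smul (u d : N) {t : F} (ht : t ≠ 0) : cs Q ψ u (t • d) = cs Q ψ u d :=
  Finset.sum_equiv (LinearEquiv.smulOfNeZero F N t ht).toEquiv (fun c => by simp [mem_perp1, Q_smul, ht])
    fun c _ => by simp

theorem cs_eq (hψ : ψ ≠ 1) (u d : N) : (Fintype.card F - 1) * cs Q ψ u d =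
    Fintype.card F * cnt Q (perp Q {u, d}) 0 - cnt Q (perp Q {u}) 0 := by
  have h : ∑ t : F, cs Q ψ u (t • d) = Fintype.card F * cnt Q (perp Q {u, d}) 0 := by
    simp only [cs, polar_smul_right, smul_eq_mul]
    rw [Finset.sum_comm, Finset.sum_congr rfl fun c _ => AddChar.sum_mulShift _ (AddChar.IsPrimitive.of_ne_one hψ)]
    simp only [Nat.cast_ite, Nat.cast_zero]
    rw [← Finset.sum_filter, Finset.filter_filter, Finset.sum_const, nsmul_eq_mul, mul_comm, cnt]
    congr 3
    ext c; simp only [Finset.mem_filter, mem_perp1, mem_perp2]; tauto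
  rw [← Finset.add_sum_erase _ _ (Finset.mem_univ 0), Finset.sum_congr rfl fun t ht =>
    cs_smul u d (Finset.mem_erase.1 ht).1, Finset.sum_const, Finset.card_erase_of_mem (Finset.mem_univ _),
    Finset.card_univ, nsmul_eq_mul, Nat.cast_sub Fintype.card_pos, Nat.cast_one] at h
  rw [← h]
  simp [cs, cnt]

variable [FiniteDimensional F N] {hQ : Nondeg Q} {hn : 7 ≤ finrank F N} [Fintype (Dual F N)]
  {V : Type*} [AddCommGroup V] [Module ℂ V] {ρ : Representation ℂ (E Q) V}

theorem sum_ei (hψ : ψ ≠ 1) {a b u : N} (ha : a ∈ (oSys hQ hn).S) (hab : polar Q b a = 0) (hb : b ∉ F ∙ a)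
    (hu : u ∈ (oSys hQ hn).S) (hocc : ∀ d, d ∉ F ∙ u → (oSys hQ hn).E ρ ψ u d ≠ ⊥ → Q d = Q b) (x : V) :
    ∑ c with c ∈ perp Q {u} ∧ Q c = 0, ρ (ei Q u c) x =
      cs Q ψ a b • x + (cnt Q (perp Q {u}) 0 - cs Q ψ a b) • (oSys hQ hn).π ρ ψ u 0 x := by
  have q0 : (Fintype.card F : ℂ) ≠ 0 := Nat.cast_ne_zero.2 Fintype.card_ne_zero
  have key : ∀ d, ∀ y ∈ (oSys hQ hn).E ρ ψ u d, ∑ c with c ∈ perp Q {u} ∧ Q c = 0, ρ (ei Q u c) y =
      cs Q ψ a b • y + (cnt Q (perp Q {u}) 0 - cs Q ψ a b) • (oSys hQ hn).π ρ ψ u 0 y := fun d y hy => by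
    rw [Finset.sum_congr rfl fun c hc => mem_oE.1 hy c (mem_perp1.1 (Finset.mem_filter.1 hc).2.1), ← Finset.sum_smul]
    by_cases hd : d ∈ F ∙ u
    · rw [TSys.π_eq_self ((TSys.E_congr (b := 0) (by simpa using hd)).le hy), ← add_smul, add_sub_cancel,
        Finset.sum_congr rfl fun c hc => by rw [polar_eq_zero_of_span (Finset.mem_filter.1 hc).2.1 hd]]
      simp [cnt]
    rw [TSys.π_eq_zero hψ hu (by simpa using hd) hy, smul_zero, add_zero]
    by_cases h0 : (oSys hQ hn).E ρ ψ u d = ⊥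
    · rw [h0, Submodule.mem_bot] at hy
      simp [hy]
    · obtain ⟨g, e1, e2⟩ := exists_E_pair hQ hn ha.2 hb hu.2 hd (hu.1.trans ha.1.symm) (hocc d hd h0) (by
        rw [polar_comm, by_contra fun e => h0 (oE_eq_bot hψ hu.1 e), polar_comm, hab])
      rw [← cs_act g.1, e1, e2, cs]
  refine smul_right_injective V q0 ?_
  have h := Finset.sum_congr rfl fun d (_ : d ∈ Finset.univ) => key d _ (TSys.π_mem hu d x)
  rw [Finset.sum_comm, Finset.sum_add_distrib, ← Finset.smul_sum, ← Finset.smul_sum, ← map_sum] at h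
  simp only [← map_sum, TSys.sum_π hψ hu, map_smul] at h
  simp only [Finset.smul_sum, smul_add, h, smul_comm (Fintype.card F : ℂ)]

theorem lam_eq (hψ : ψ ≠ 1) {a b : N} {v : V} {l : V →ₗ[ℂ] ℂ} (h : (oSys hQ hn).Eig0 ρ ψ a b v l)
    (hab : polar Q b a = 0) (hb : b ∉ F ∙ a)
    (hocc : ∀ u ∈ (oSys hQ hn).S, ∀ d, d ∉ F ∙ u → (oSys hQ hn).E ρ ψ u d ≠ ⊥ → Q d = Q b)
    (hkey : ∀ c ∈ (oSys hQ hn).S, c ∈ perp Q {a, b} → ∀ u ∈ perp Q {a, b, c}, ρ (ei Q c u) v = v)
    (hmid : ∀ c ∈ (oSys hQ hn).S, c ∈ perp Q {a, b} → c ∉ Submodule.span F {a, b} →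
      l ((oSys hQ hn).π ρ ψ c 0 v) = (Fintype.card F : ℂ)⁻¹) {k : ℕ} (hk : finrank F N = k + 4)
    {q σ s₀ s₁ p : ℂ} (hq : q = Fintype.card F) (hσ : σ = cnt Q ⊤ 0) (h₀ : s₀ = cnt Q (perp Q {a}) 0)
    (h₁ : s₁ = cs Q ψ a b) (hp : p = cnt Q (perp Q {a, b}) 0) :
    σ + (σ - 1) * s₁ + (s₀ - s₁) * ∑ c with c ∈ (oSys hQ hn).S, l ((oSys hQ hn).π ρ ψ c 0 v) =
      s₀ * ((q + 1) * s₁) + p * ((q + 1) * (s₀ - s₁) * q⁻¹ - q * p + q * (q - 1) * q ^ k) +
      cnt Q (Submodule.span F {a, b}) 0 * (-((q + 1) * (s₀ - s₁) * q⁻¹) - q * (q - 1) * q ^ k) +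
      q * (q * p - q * s₁) + ((q + 1) * σ - s₁ - q * s₀) + (q + 1) * (s₀ - s₁) *
        ∑ c with c ∈ (oSys hQ hn).S ∧ c ∈ Submodule.span F {a, b}, l ((oSys hQ hn).π ρ ψ c 0 v) := by
  have ha := h.ctr
  have hS : ∀ u, u ∈ (oSys hQ hn).S ↔ Q u = 0 ∧ u ≠ 0 := fun _ => Iff.rfl
  let φ : N → N → ℂ := fun u c => if Q u = 0 ∧ c ∈ perp Q {u} ∧ Q c = 0 then l (ρ (ei Q u c) v) else 0
  have h1 := split_sum (polarBilin Q a) φ (fun u c => by
      refine if_ctx_congr (by simp only [mem_perp1, polar_neg_left, neg_eq_zero, Q_neg, polar_comm Q c u]; tauto)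
        (fun e => ?_) fun _ => rfl
      simp only [mem_perp1, polar_neg_left, neg_eq_zero, Q_neg] at e
      rw [ei_swap e.2.2 e.1 e.2.1])
    fun u c t => by
      by_cases hu : Q u = 0
      · have e1 : polar Q (c + t • u) u = polar Q c u := by simp [polar_self_of_sing hu]
        refine if_ctx_congr ?_ (fun e => ?_) fun _ => rfl
        · simp only [mem_perp1, e1, Q_add, Q_smul, hu, polar_smul_right]
          exact and_congr_right fun _ => and_congr_right fun e => by simp [e]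
        · rw [show ei Q u (c + t • u) = ei Q u c from Subtype.ext
            (eich_add_smul_self t hu ((polar_comm _ _ _).trans (mem_perp1.1 e.2.1)))]
      · simp [φ, hu]
  have hs₀ : ∀ u ∈ (oSys hQ hn).S, (cnt Q (perp Q {u}) 0 : ℂ) = s₀ := fun u hu => by
    have e1 := cnt_top_eq hQ hu.2 hu.1 (k := k + 2) hk 0
    rw [cnt_top_eq hQ ha.2 ha.1 (k := k + 2) hk 0] at e1
    rw [h₀, Nat.add_right_cancel e1]
  have hΦ : ∀ u, ∑ c, φ u c = (if Q u = 0 then s₁ else 0) + (if u = 0 then σ - s₁ else 0) +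
      if u ∈ (oSys hQ hn).S then (s₀ - s₁) * l ((oSys hQ hn).π ρ ψ u 0 v) else 0 := fun u => by
    by_cases hu : Q u = 0
    swap
    · have : u ≠ 0 := fun e => hu (e ▸ Q.map_zero)
      simp [φ, hu, hS, this]
    rcases eq_or_ne u 0 with rfl | u0
    · simp [φ, hS, mem_perp1, show ∀ c, ei Q 0 c = 1 from fun c => Subtype.ext (eich_zero_left c), h.l_self, hσ, cnt]
    · simp only [φ, hu, true_and, hS, u0, if_true, if_false, ne_eq, not_false_iff, add_zero]
      rw [← Finset.sum_filter, ← map_sum, sum_ei hψ ha hab hb ⟨hu, u0⟩ (hocc u ⟨hu, u0⟩), hs₀ u ⟨hu, u0⟩, ← h₁]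
      simp [h.l_self]
  have hℓ : ∀ u ∈ Submodule.span F {a, b}, Q u = 0 → u ∈ perp Q {a, b} := fun u hu e => by
    obtain ⟨s, t, rfl⟩ := Submodule.mem_span_pair.1 hu
    simp only [Q_add, Q_smul, ha.1, polar_smul_left, polar_smul_right, polar_comm Q a b, hab] at e
    have : t * Q b = 0 := by
      rcases eq_or_ne t 0 with rfl | t0
      · simp
      · simpa [t0] using e
    simp [mem_perp2, ha.1, hab, polar_comm Q a b, mul_left_comm t, this]
  have hFa : ∀ u ∈ F ∙ a, u ∈ Submodule.span F {a, b} ∧ Q u = 0 := fun u hu => by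
    obtain ⟨t, rfl⟩ := Submodule.mem_span_singleton.1 hu
    exact ⟨Submodule.smul_mem _ _ (Submodule.subset_span (by simp)), by simp [Q_smul, ha.1]⟩
  have h2 : ∀ u, polarBilin Q a u = 0 → (Fintype.card F + 1) * ∑ c, φ u c -
      Fintype.card F * ∑ c with polarBilin Q a c = 0, φ u c =
      (if u ∈ perp Q {a} ∧ Q u = 0 then (q + 1) * s₁ else 0) +
      (if u ∈ perp Q {a, b} ∧ Q u = 0 then (q + 1) * (s₀ - s₁) * q⁻¹ - q * p + q * (q - 1) * q ^ k else 0) +
      (if u ∈ Submodule.span F {a, b} ∧ Q u = 0 then -((q + 1) * (s₀ - s₁) * q⁻¹) - q * (q - 1) * q ^ k else 0) +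
      (if u ∈ F ∙ a then q * p - q * s₁ else 0) + (if u = 0 then (q + 1) * σ - s₁ - q * s₀ else 0) +
      if u ∈ (oSys hQ hn).S ∧ u ∈ Submodule.span F {a, b} then
        (q + 1) * (s₀ - s₁) * l ((oSys hQ hn).π ρ ψ u 0 v) else 0 := fun u hua => by
    have hua : polar Q u a = 0 := (polar_comm _ _ _).trans hua
    rw [hΦ, ← hq]
    by_cases hu : Q u = 0
    swap
    · have : u ≠ 0 := fun e => hu (e ▸ Q.map_zero)
      have : u ∉ F ∙ a := fun e => hu (hFa u e).2
      simp [φ, *]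
    simp only [φ, hu, true_and, and_true, mem_perp1, hua, if_true, polarBilin_apply_apply]
    rw [← Finset.sum_filter, Finset.filter_filter]
    rcases eq_or_ne u 0 with rfl | u0
    · simp only [hS, show ∀ c, ei Q 0 c = 1 from fun c => Subtype.ext (eich_zero_left c), map_one, End.one_apply,
        h.l_self, zero_mem, if_true, ne_eq, not_true, and_false, false_and, if_false, polar_zero_right, true_and,
        Finset.sum_const, nsmul_eq_mul, mul_one]
      rw [show ((Finset.univ.filter fun c => polar Q a c = 0 ∧ Q c = 0).card : ℂ) = s₀ by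
        simp [h₀, cnt, mem_perp1, polar_comm Q a]]
      ring
    simp only [hS, hu, u0, ne_eq, not_false_iff, true_and, if_true, if_false]
    by_cases hF : u ∈ F ∙ a
    · rw [if_pos hF, if_pos (hFa u hF).1, if_pos (hFa u hF).1, if_pos (hℓ u (hFa u hF).1 hu)]
      obtain ⟨t, rfl⟩ := Submodule.mem_span_singleton.1 hF
      have t0 := left_ne_zero_of_smul u0
      rw [show ∑ c with polar Q a c = 0 ∧ polar Q c (t • a) = 0 ∧ Q c = 0, l (ρ (ei Q (t • a) c) v) = s₁ by
        rw [h₁, ← cs_smul a b t0]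
        refine Finset.sum_congr (by ext c; simp [mem_perp1, polar_comm Q a, t0]) fun c hc => ?_
        have e := mem_perp1.1 (Finset.mem_filter.1 hc).2.1
        rw [show ei Q (t • a) c = ei Q a (t • c) from Subtype.ext (eich_smul_left t ha.1 ((polar_comm _ _ _).trans e)),
          mem_oE.1 h.mem _ (by simp [e])]
        simp [h.l_self]]
      ring
    rw [if_neg hF]
    by_cases hub : polar Q u b = 0
    swap
    · have e1 : u ∉ perp Q {a, b} := fun e => hub (mem_perp2.1 e).2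
      have e2 : u ∉ Submodule.span F {a, b} := fun e => e1 (hℓ u e hu)
      obtain ⟨t, ht⟩ := exists_psi_ne hψ hub
      have e3 : ρ (ei Q u (-t • a)) v = ψ (t * polar Q u b) • v := by
        rw [show ei Q u (-t • a) = ei Q a (t • u) from by
          rw [ei_swap hu (by simp [Q_smul, ha.1]) (by simp [hua])]
          exact Subtype.ext ((eich_smul_left _ ha.1 (by simp [polar_comm Q a, hua])).trans (by simp [ei])),
          mem_oE.1 h.mem _ (by simp [hua]), polar_smul_left, smul_eq_mul]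
      have e4 : (oSys hQ hn).π ρ ψ u 0 v = 0 := by
        have := TSys.π_T (D := oSys hQ hn) (ρ := ρ) (ψ := ψ) ⟨hu, u0⟩ 0 (f := polarBilin Q (-t • a))
          (by simp [polar_comm Q a, hua]) v
        rw [oSys_T, e3, map_smul, map_zero, AddChar.map_zero_eq_one, one_smul] at this
        exact eq_zero_of_smul_eq this ht
      have e5 : ∑ c with polar Q a c = 0 ∧ polar Q c u = 0 ∧ Q c = 0, l (ρ (ei Q u c) v) = 0 := by
        refine eq_zero_of_smul_eq (V := ℂ) ?_ ht
        rw [Finset.smul_sum]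
        refine Finset.sum_equiv (Equiv.addRight (-t • a)) (fun c => ?_) fun c hc => ?_
        · simp only [Finset.mem_filter, Finset.mem_univ, true_and, Equiv.coe_addRight, polar_add_right, polar_add_left,
            polar_smul_left, polar_smul_right, polar_self_of_sing ha.1, polar_comm Q a u, hua, smul_zero, add_zero,
            Q_add, Q_smul, ha.1, mul_zero, polar_comm Q c a]
          exact and_congr_right fun e => by simp [e]
        · rw [Equiv.coe_addRight, ei_add hu ((polar_comm _ _ _).trans (Finset.mem_filter.1 hc).2.2.1) (by simp [hua]),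
            map_mul ρ, End.mul_apply, e3]
          simp
      simp [e1, e2, e4, e5]
    have e1 : u ∈ perp Q {a, b} := mem_perp2.2 ⟨hua, hub⟩
    rw [if_pos e1, show ∑ c with polar Q a c = 0 ∧ polar Q c u = 0 ∧ Q c = 0, l (ρ (ei Q u c) v) =
        cnt Q (perp Q {a, b, u}) 0 by
      rw [Finset.sum_congr rfl (g := fun c => if polar Q c b = 0 then 1 else 0) fun c hc => ?_, Finset.sum_boole,
        Finset.filter_filter, cnt]
      · congr 2
        ext c; simp only [Finset.mem_filter, mem_perp3, polar_comm Q a]; tauto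
      obtain ⟨-, c1, c2, c3⟩ := Finset.mem_filter.1 hc
      split_ifs with c4
      · rw [hkey u ⟨hu, u0⟩ e1 c (mem_perp3.2 ⟨(polar_comm _ _ _).trans c1, c4, c2⟩), h.l_self]
      · refine h.l_apply hψ (eich_apply_of_orth ((polar_comm _ _ _).trans hua) c1) fun e => hF ?_
        have e2 : (oSys hQ hn).act (ei Q u c) b = b + polar Q b c • u :=
          eich_apply_of_orth_left hu ((polar_comm _ _ _).trans c2) ((polar_comm _ _ _).trans hub)
        rwa [e2, add_sub_cancel_left, Submodule.smul_mem_iff _ (by rwa [polar_comm])] at e]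
    by_cases hL : u ∈ Submodule.span F {a, b}
    · rw [if_pos hL, if_pos hL, show perp Q {a, b, u} = perp Q {a, b} from Submodule.ext fun x => by
        rw [mem_perp3, ← and_assoc, ← mem_perp2]
        exact and_iff_left_of_imp fun e => polar_eq_zero_of_span e hL, ← hp]
      ring
    · have e2 := cnt_perp_insert hQ e1 hu hL (k := k) (by rw [finrank_pair ha.2 hb]; omega) (t := {a, b, u})
        (by ext; simp; tauto) 0
      rw [if_neg hL, if_neg hL, hmid u ⟨hu, u0⟩ e1 hL, hp, e2, ← hq]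
      push_cast [Nat.cast_sub (Fintype.card_pos (α := F))]
      rw [← hq]
      ring
  rw [Finset.sum_congr rfl fun u hu => h2 u (Finset.mem_filter.1 hu).2] at h1
  have hin : ∀ (P : N → Prop) [DecidablePred P] (f : N → ℂ), (∀ u, P u → polar Q u a = 0) →
      ∑ u with polarBilin Q a u = 0, (if P u then f u else 0) = ∑ u with P u, f u := fun P _ f hP => by
    rw [← Finset.sum_filter, Finset.filter_filter]
    refine Finset.sum_congr ?_ fun _ _ => rfl
    ext u
    simpa [polar_comm Q a] using hP u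
  have hpa : ∀ u ∈ Submodule.span F {a, b}, polar Q u a = 0 := fun u hu =>
    (polar_comm _ _ _).trans (polar_eq_zero_of_span
      (mem_perp2.2 ⟨polar_self_of_sing ha.1, (polar_comm _ _ _).trans hab⟩) hu)
  simp only [hΦ, Finset.sum_add_distrib] at h1
  rw [hin (fun u => u ∈ perp Q {a} ∧ Q u = 0) _ fun u e => mem_perp1.1 e.1,
    hin (fun u => u ∈ perp Q {a, b} ∧ Q u = 0) _ fun u e => (mem_perp2.1 e.1).1,
    hin (fun u => u ∈ Submodule.span F {a, b} ∧ Q u = 0) _ fun u e => hpa u e.1,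
    hin (· ∈ F ∙ a) _ fun u e => hpa u (hFa u e).1, hin (· = 0) _ fun u e => by simp [e],
    hin (fun u => u ∈ (oSys hQ hn).S ∧ u ∈ Submodule.span F {a, b}) _ fun u e => hpa u e.2] at h1
  simp only [← Finset.sum_filter, Finset.sum_const, nsmul_eq_mul, TSys.card_line ha.2, ← Finset.mul_sum] at h1
  rw [show ((Finset.univ.filter fun c => Q c = 0).card : ℂ) = σ by simp [hσ, cnt],
    show ((Finset.univ.filter fun c : N => c = 0).card : ℂ) = 1 by
      rw [Nat.cast_eq_one, Finset.card_eq_one]; exact ⟨0, by ext; simp⟩] at h1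
  simp only [cnt] at h₀ hp
  rw [← h₀, ← hp, ← hq] at h1
  rw [cnt]
  linear_combination h1

end CfsgLib.ClDeg
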