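import Mathlib
import Cfsg.Agent.Lib.ClDeg.OLam

/-!
# The least degree of a non-linear complex representation of an orthogonal group
-/

set_option autoImplicit false

namespace CfsgLib.ClDeg

open Module QuadraticMap CfsgLib.OrthE CfsgLib.MinDeg
open scoped _root_.Classical

theorem odd_arith {q R E d e : ℤ} (hq : 2 ≤ q) (hE : 2 ≤ E) (hR : R = (q ^ 2 - 1) * E + 1) (he : 0 ≤ e)
    (h : d * (q ^ 2 - 1) * ((R + 1) * (e + q - 1) - (q + 1) * e) = (q ^ 2 * R - 1) * (R - 1) * (e + q - 1)) :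
    q ^ 2 * R - 1 ≤ (q ^ 2 - 1) * d := by
  have h3 : 3 ≤ q ^ 2 - 1 := by nlinarith
  have h4 : 3 * E + 1 ≤ R := by nlinarith
  have h5 : q ^ 2 * R - 1 = (q ^ 2 - 1) * (R + E) := by rw [hR]; ring
  rw [h5] at h ⊢
  have h6 : d * ((R + 1) * (e + q - 1) - (q + 1) * e) = (R + E) * (R - 1) * (e + q - 1) :=
    mul_left_cancel₀ (show q ^ 2 - 1 ≠ 0 by omega) (by linear_combination h)
  obtain rfl | rfl | he : e = 0 ∨ e = 1 ∨ 2 ≤ e := by omega
  · have h7 : d * (R + 1) = (R + E) * (R - 1) :=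
      mul_right_cancel₀ (show q - 1 ≠ 0 by omega) (by linear_combination h6)
    have := Int.le_of_dvd (by omega) (show R + 1 ∣ 2 * (E - 1) from ⟨R + E - 2 - d, by linear_combination h7⟩)
    omega
  · have := Int.le_of_dvd (mul_pos (by omega) (by omega))
      (show q * R - 1 ∣ (q - 1) * (R + E) from ⟨R + E - d, by linear_combination h6⟩)
    nlinarith
  · have h1 : 0 < (R + 1) * (e + q - 1) - (q + 1) * e := by
      have : q ≤ R := by nlinarith
      nlinarith
    refine mul_le_mul_of_nonneg_left (le_of_mul_le_mul_right ?_ h1) (by omega)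
    have h2 : 0 ≤ (R + E) * ((q - 1) * (e - 2)) := mul_nonneg (by omega) (mul_nonneg (by omega) (by omega))
    nlinarith

theorem even_arith {q x E d e ε : ℤ} (hq : 2 ≤ q) (hx : q ^ 2 ≤ x) (hE : (q * x) ^ 2 - 1 = (q ^ 2 - 1) * E)
    (he : 0 ≤ e) (hε : ε = 1 ∨ ε = -1)
    (h : d * (q ^ 2 - 1) * ((q * x ^ 2 + 1) * (e + q - 1) - (q + 1) * e) =
      (q ^ 2 * x - ε) * (x + ε) * ((q * x) ^ 2 - 1) * (e + q - 1)) :
    (q ^ 2 * x - ε) * (q * x + ε * q) ≤ (q ^ 2 - 1) * d := by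
  have h3 : 4 ≤ q ^ 2 := by nlinarith
  have e2 : ε ^ 2 = 1 := by rcases hε with rfl | rfl <;> norm_num
  rcases he.eq_or_lt with rfl | he
  · exfalso
    have h6 : d * (q * x ^ 2 + 1) = (q ^ 2 * x - ε) * (x + ε) * E :=
      mul_left_cancel₀ (show (q ^ 2 - 1) * (q - 1) ≠ 0 from mul_ne_zero (by omega) (by omega))
        (by linear_combination h + (q ^ 2 * x - ε) * (x + ε) * (q - 1) * hE)
    have h7 : q * x ^ 2 + 1 ∣ (q + 1) * (ε * x * (q - 1) - 1) :=
      ⟨(q - 1) * q * E + q * (ε * x * (q - 1) - 1) - (q - 1) * d, by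
        linear_combination (q - 1) * h6 - (ε * x * (q - 1) - 1) * hE - (q - 1) * E * e2⟩
    have h8 : q ^ 2 * x ≤ x ^ 2 := by nlinarith
    rcases hε with rfl | rfl
    · have := Int.le_of_dvd (mul_pos (by omega) (by nlinarith)) h7
      nlinarith
    · have := Int.le_of_dvd (show 0 < -((q + 1) * (-1 * x * (q - 1) - 1)) by nlinarith) (dvd_neg.2 h7)
      nlinarith
  · have h1 : 0 < (q * x ^ 2 + 1) * (e + q - 1) - (q + 1) * e := by
      have : q ≤ q * x ^ 2 := by nlinarith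
      nlinarith
    refine le_of_mul_le_mul_right ?_ h1
    have h0 : 0 ≤ (q ^ 2 * x - ε) * (x + ε) := by
      rcases hε with rfl | rfl <;> exact mul_nonneg (by nlinarith) (by omega)
    have h2 := mul_nonneg h0 (mul_nonneg (mul_nonneg (show 0 ≤ q + 1 by omega) (show 0 ≤ q - 1 by omega))
      (show 0 ≤ e - 1 by omega))
    nlinarith

variable {F N : Type*} [Field F] [AddCommGroup N] [Module F N] {Q : QuadraticForm F N} [Fintype F]
  [FiniteDimensional F N] (hQ : Nondeg Q) {V : Type*} [AddCommGroup V] [Module ℂ V] [FiniteDimensional ℂ V]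
  (ρ : Representation ℂ (E Q) V) [ρ.IsIrreducible]

include hQ ρ in
theorem orth_cases [Fintype N] {k : ℕ} (hk : finrank F N = k + 4) (hk3 : 3 ≤ k) (hV : 2 ≤ finrank ℂ V)
    (hH : (∃ x : F, x ≠ 0 ∧ x ^ 2 ≠ 1) ∨
      ∀ M : Submodule F N, (∀ w ∈ M, Q w = 0) → 2 * finrank F M < finrank F N)
    {q d σ : ℤ} (hq : q = Fintype.card F) (hd : d = finrank ℂ V) (hσ : σ = cnt Q ⊤ 0) :
    2 * (q ^ 2 - 1) * q ^ k ≤ q * d ∨
    (∃ e : ℕ, q * d * (q ^ 2 - 1) * ((q ^ (k + 1) + 1) * (e + q - 1) - (q + 1) * e) =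
      (σ - 1) * (σ - (q - 1) * q ^ (k + 2) - q) * (e + q - 1)) ∨
    ((∀ x : F, x ≠ 0 → x ^ 2 = 1) ∧ ∀ y : ℤ, ∀ j, k = 2 * j → y = q ^ (j + 1) → σ = q * y ^ 2 - q * y + y →
      y ^ 2 + y ≤ q * d ∧ (5 ≤ k → d * (q ^ 2 - 1) = (q * y + 1) * (y + 1))) := by
  have hn : 7 ≤ finrank F N := by omega
  have := LS.finite_dual (F := F) (V := N)
  have := Fintype.ofFinite (Dual F N)
  obtain ⟨ψ, hψ'⟩ := AddChar.exists_apply_ne_zero.2 (one_ne_zero (α := F))
  have hψ : ψ ≠ 1 := fun e => hψ' (by rw [e]; rfl)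
  have hq1 := Fintype.one_lt_card (α := F)
  set D := oSys hQ hn
  obtain ⟨a, a0, ha0⟩ := exists_singular Q (by omega)
  have ha : a ∈ D.S := ⟨ha0, a0⟩
  obtain ⟨z, hz, y, hy, hza, hh⟩ := exists_hyp_perp hQ (s := {a}) (by rw [finrank_span_singleton a0]; omega)
  have hrep : ∀ c : F, y + c • z ∈ perp Q {a} ∧ y + c • z ∉ F ∙ a := fun c =>
    ⟨add_mem hy (Submodule.smul_mem _ _ hz), fun e => by
      simpa [hh.hef, hh.hee] using polar_eq_zero_of_span hz e⟩
  let m : F → ℕ := fun c => finrank ℂ (D.E ρ ψ a (y + c • z))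
  have hm : ∀ u ∈ D.S, ∀ x ∈ perp Q {u}, x ∉ F ∙ u → finrank ℂ (D.E ρ ψ u x) = m (Q x) := fun u hu x hx h0 => by
    obtain ⟨g, e1, e2⟩ := exists_E_pair hQ hn a0 (hrep (Q x)).2 hu.2 h0 (hu.1.trans ha0.symm)
      (hh.Q_add_smul _).symm (by rw [polar_comm, mem_perp1.1 hx, polar_comm, mem_perp1.1 (hrep _).1])
    have := TSys.finrank_inf_E (D := D) (ρ := ρ) (ψ := ψ) (W := ⊤) (g := g) (fun _ _ => trivial)
      (fun _ _ => trivial) ha (y + Q x • z)
    rwa [top_inf_eq, top_inf_eq, show D.act g a = u from e1, show D.act g _ = x from e2] at this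
  let L : N → F → Finset N := fun u c => Finset.univ.filter fun x => x ∉ F ∙ u ∧ x ∈ perp Q {u} ∧ Q x = c
  have hdim : ∀ u ∈ D.S, Fintype.card F * finrank ℂ V =
      Fintype.card F * finrank ℂ (D.E ρ ψ u 0) + ∑ c, (L u c).card * m c := fun u hu => by
    have := TSys.sum_finrank_E (ρ := ρ) hψ hu (W := ⊤) fun _ _ _ _ => trivial
    have e : ∀ X : Submodule ℂ V, finrank ℂ ↥(⊤ ⊓ X) = finrank ℂ X := fun X => by rw [top_inf_eq]
    simp only [e, finrank_top] at this
    rw [this, ← Finset.sum_fiberwise _ Q]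
    congr 1
    refine Finset.sum_congr rfl fun c _ => ?_
    rw [← smul_eq_mul, ← Finset.sum_const, ← Finset.sum_subset (s₁ := L u c) (fun x hx => by
      simp only [L, Finset.mem_filter] at hx ⊢; tauto) fun x hx hx' => ?_]
    · refine Finset.sum_congr rfl fun x hx => ?_
      obtain ⟨-, h1, h2, rfl⟩ := Finset.mem_filter.1 hx
      exact hm u hu x h2 h1
    · simp only [L, Finset.mem_filter, mem_perp1] at hx hx'
      rw [oE_eq_bot hψ hu.1 (by tauto), finrank_bot]
  have hFa : ∀ x ∈ F ∙ a, x ∈ perp Q {a} ∧ Q x = 0 := fun x hx => by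
    obtain ⟨t, rfl⟩ := Submodule.mem_span_singleton.1 hx
    simp [mem_perp1, polar_self_of_sing ha0, Q_smul, ha0]
  have hL : ∀ c, (L a c).card + (if c = 0 then Fintype.card F else 0) = cnt Q (perp Q {a}) c := fun c => by
    rw [cnt, ← Finset.card_filter_add_card_filter_not (s := Finset.univ.filter fun x => x ∈ perp Q {a} ∧ Q x = c)
      (· ∉ F ∙ a), Finset.filter_filter, Finset.filter_filter]
    congr 1
    · congr 1; ext x; simp only [L, Finset.mem_filter]; tauto
    split_ifs with e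
    · rw [← TSys.card_line (F := F) a0]
      congr 1; ext x; simpa [e] using hFa x
    · refine (Finset.card_eq_zero.2 (Finset.filter_eq_empty_iff.2 fun x _ h => e ?_)).symm
      rw [← h.1.2, (hFa x (not_not.1 h.2)).2]
  have hza' := mem_perp1.1 hz
  have c1 := fun c => cnt_perp_insert hQ hz hh.he hza (k := k + 1) (by rw [finrank_span_singleton a0]; omega)
    (t := {a, z}) (Set.pair_comm _ _) c
  have c0 := fun c => cnt_top_eq hQ a0 ha0 (k := k + 2) hk c
  have hlow : ∀ c, (Fintype.card F - 1) * (Fintype.card F ^ (k + 1) + Fintype.card F ^ k) ≤ (L a c).card :=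
    fun c => by
      have hf := finrank_pair a0 hza
      have := finrank_perp hQ {a, z}
      obtain ⟨w, hw, w0, hw0⟩ := exists_sing_notMem (Q := Q) (X := perp Q {a, z}) (L := Submodule.span F {a, z})
        (by omega)
      have c2 := cnt_perp_insert hQ hw hw0 w0 (k := k) (by omega) rfl c
      have c3 : (if c = 0 then Fintype.card F else 0) ≤ cnt Q (perp Q (insert w {a, z})) c := by
        split_ifs with e
        · rw [← TSys.card_line (F := F) a0]
          refine Finset.card_le_card fun x hx => ?_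
          obtain ⟨t, rfl⟩ := Submodule.mem_span_singleton.1 (Finset.mem_filter.1 hx).2
          simp [mem_perp3, polar_self_of_sing ha0, Q_smul, ha0, e, polar_comm Q a, hza', (mem_perp2.1 hw).1]
        · exact Nat.zero_le _
      have := hL c
      have := c1 c
      rw [mul_add]; omega
  rcases Nat.lt_trichotomy (∑ c, m c) 1 with h | h | h
  · exfalso
    have h0 : ∀ c, m c = 0 := fun c => (Finset.sum_eq_zero_iff.1 (Nat.lt_one_iff.1 h)) c (Finset.mem_univ c)
    refine LS.ker_ne_top_of_irreducible ρ ‹_› hV (eq_top_iff.2 fun g _ => ?_)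
    obtain ⟨g', hg', e⟩ := E_le (H := ρ.ker.map (E Q).subtype) (fun u x hu hx => ⟨ei Q u x, by
      rcases eq_or_ne u 0 with rfl | u0
      · rw [show ei Q 0 x = 1 from Subtype.ext (eich_zero_left x)]; exact one_mem _
      have h1 := hdim u ⟨hu, u0⟩
      simp only [h0, mul_zero, Finset.sum_const_zero, add_zero] at h1
      have h2 := Submodule.eq_top_of_finrank_eq (Nat.eq_of_mul_eq_mul_left (by omega) h1).symm
      exact LinearMap.ext fun v => (mem_oE.1 (h2.ge Submodule.mem_top) x ((polar_comm _ _ _).trans hx)).trans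
        (by simp), rfl⟩) g.2
    exact (Subtype.ext e : g' = g) ▸ hg'
  swap
  · left
    have h1 := Finset.sum_le_sum fun c (_ : c ∈ Finset.univ) => Nat.mul_le_mul_right (m c) (hlow c)
    rw [← Finset.mul_sum] at h1
    have h2 := (Nat.mul_le_mul_left _ h).trans (h1.trans (le_of_add_le_right (hdim a ha).ge))
    zify [hq1.le] at h2
    rw [← hq, ← hd] at h2
    linear_combination h2
  right
  obtain ⟨c₀, -, hc₀⟩ := Finset.exists_ne_zero_of_sum_ne_zero (h.trans_ne one_ne_zero)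
  rw [← Finset.add_sum_erase _ _ (Finset.mem_univ c₀)] at h
  have hm1 : m c₀ = 1 := by omega
  have hm0 : ∀ c, c ≠ c₀ → m c = 0 := fun c hc =>
    Finset.sum_eq_zero_iff.1 (show ∑ c ∈ Finset.univ.erase c₀, m c = 0 by omega) c (by simp [hc])
  have hocc : ∀ u ∈ D.S, ∀ x, x ∉ F ∙ u → D.E ρ ψ u x ≠ ⊥ → Q x = c₀ := fun u hu x hx h0 => by_contra fun e =>
    h0 (Submodule.finrank_eq_zero.1 ((hm u hu x (mem_perp1.2 (by_contra fun e => h0 (oE_eq_bot hψ hu.1 e))) hx).trans
      (hm0 _ e)))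
  have hda := hdim a ha
  rw [Finset.sum_eq_single c₀ (fun c _ hc => by rw [hm0 c hc, mul_zero]) (by simp), hm1, mul_one] at hda
  have hS : ((Finset.univ.filter (· ∈ D.S)).card : ℂ) = cnt Q ⊤ 0 - 1 := by
    rw [cnt, ← Finset.card_erase_add_one (a := (0 : N)) (s := Finset.filter (fun x => x ∈ ⊤ ∧ _) _) (by simp),
      Nat.cast_add, Nat.cast_one, add_sub_cancel_right]
    congr 2; ext x
    simp only [Finset.mem_filter, Finset.mem_erase, Finset.mem_univ, Submodule.mem_top, true_and]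
    exact and_comm
  have htr : ∀ c ∈ D.S, ∃ g, D.act g a = c := fun c hc => by
    obtain ⟨w, hw, -, -, w0, h', -⟩ := exists_hyp_perp hQ (s := {c}) (by rw [finrank_span_singleton hc.2]; omega)
    exact (D.trans a ha z ⟨hh.he, hh.e_ne⟩ hz hza c hc w ⟨h', fun e => w0 (e ▸ zero_mem _)⟩ hw w0).imp fun _ => And.left
  have q0 : (Fintype.card F : ℂ) ≠ 0 := Nat.cast_ne_zero.2 Fintype.card_ne_zero
  have q1 : (Fintype.card F : ℂ) - 1 ≠ 0 := sub_ne_zero.2 (by exact_mod_cast hq1.ne')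
  have hcast : ∀ {x y : ℕ}, x = y → (x : ℂ) = y := congrArg _
  rcases eq_or_ne c₀ 0 with rfl | c0'
  · left
    have hkey : ∀ a b, D.P a b → ∀ v ∈ D.E ρ ψ a b, ∀ c ∈ D.S, c ∈ perp Q {a, b} → ∀ u ∈ perp Q {a, b, c},
        ρ (ei Q c u) v = v := fun a b h v hv c hc hc' u hu =>
      key_sing h.1 ((hm a h.1 b h.2.2.1 h.2.2.2).trans (h.2.1.1.symm ▸ hm1)) hv hψ h.2.1.1
        ((polar_comm _ _ _).trans (mem_perp1.1 h.2.2.1)) hH hc hc' hu fun x hx => by_contra fun e =>
          hx (hocc c hc x (fun e => hx (by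
            obtain ⟨t, rfl⟩ := Submodule.mem_span_singleton.1 e
            simp [Q_smul, hc.1])) e)
    have h1 : D.One ρ ψ := ⟨hψ, fun a b h => (hm a h.1 b h.2.2.1 h.2.2.2).trans (h.2.1.1.symm ▸ hm1),
      fun a b h c hc h1 h2 f f0 f1 f2 v hv => hkey a b h v hv c hc
        (mem_perp2.2 ⟨(polar_comm _ _ _).trans (mem_perp1.1 h1), (polar_comm _ _ _).trans (mem_perp1.1 h2)⟩) _
        (mem_perp3.2 ⟨(polar_vec hQ f a).trans f1, (polar_vec hQ f b).trans f2, (polar_vec hQ f c).trans f0⟩)⟩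
    have hp : D.P a z := ⟨ha, ⟨hh.he, hh.e_ne⟩, hz, hza⟩
    obtain ⟨v, l, hv⟩ := h1.exists_eig hp
    obtain ⟨e, he⟩ := hv.plane h1
    have hv0 : D.Eig0 ρ ψ a z v l := ⟨ha, hv.mem, hv.l_self, hv.π_eq⟩
    have ht := hv0.total htr
    have h2 := lam_eq hψ hv0 hza' hza (fun u hu x h h' => (hocc u hu x h h').trans hh.he.symm)
      (hkey a z hp v hv.mem) (fun c hc h h' => hv.mid h1 hc (mem_perp1.2 ((polar_comm _ _ _).trans (mem_perp2.1 h).1))
        (mem_perp1.2 ((polar_comm _ _ _).trans (mem_perp2.1 h).2)) h') hk rfl rfl rfl rfl rfl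
    have h3 : cnt Q (Submodule.span F {a, z}) 0 = Fintype.card F ^ 2 := by
      rw [← TSys.card_plane a0 hza, cnt]
      congr 1; ext x
      simp only [Finset.mem_filter, Finset.mem_univ, true_and, and_iff_left_iff_imp]
      intro hx
      obtain ⟨s, t, rfl⟩ := Submodule.mem_span_pair.1 hx
      simp [Q_add, Q_smul, ha0, hh.he, polar_comm Q a, hza']
    have h4 := cs_eq (Q := Q) hψ a z
    have e0 := hcast (c0 0)
    have e1 := hcast (c1 0)
    have e2 := hcast ((congrArg _ (if_pos rfl)).symm.trans (hL 0))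
    have e3 := hcast hda
    rw [hS] at ht
    rw [h3] at h2
    push_cast [Nat.cast_sub hq1.le] at e0 e1 e2 e3 h2
    have e4 : cs Q ψ a z = cnt Q (perp Q {a, z}) 0 - Fintype.card F ^ (k + 1) :=
      mul_left_cancel₀ q1 (by linear_combination h4 - e1)
    refine ⟨e, Int.cast_injective (α := ℂ) ?_⟩
    push_cast [hq, hd, hσ]
    generalize (∑ c with c ∈ D.S, l (D.π ρ ψ c 0 v)) = T at *
    generalize (∑ c with c ∈ D.S ∧ c ∈ Submodule.span F {a, z}, l (D.π ρ ψ c 0 v)) = t at *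
    rw [e4, e0, e1] at h2
    have e5 : T = cnt Q ⊤ 0 - 1 - (Fintype.card F ^ 2 - 1) * (Fintype.card F ^ (k + 1) + 1) + (Fintype.card F + 1) * t := by
      refine mul_left_cancel₀ (pow_ne_zero (k + 2) q0) ?_
      field_simp at h2
      rw [e0, e1]
      refine mul_left_cancel₀ q0 ?_
      linear_combination h2
    rw [e5] at ht
    linear_combination (-(Fintype.card F * (e + Fintype.card F - 1) : ℂ)) * ht +
      (Fintype.card F * (Fintype.card F + 1) * finrank ℂ V : ℂ) * he +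
      ((cnt Q ⊤ 0 - 1) * (e + Fintype.card F - 1) : ℂ) * (e3 + e2 - e0)
  right
  have hb := hrep c₀
  have hQb := hh.Q_add_smul c₀
  set b := y + c₀ • z
  refine ⟨fun x x0 => by_contra fun hx => ?_, fun Y j hj hY hσ' => ?_⟩
  · have e1 := hm (x⁻¹ • a) ⟨by simp [Q_smul, ha0], smul_ne_zero (inv_ne_zero x0) a0⟩ b
      (by simpa [mem_perp1, x0] using hb.1) (by
        rw [Submodule.span_singleton_smul_eq (IsUnit.mk0 _ (inv_ne_zero x0))]; exact hb.2)
    rw [← oE_smul (by simp [Q_smul, ha0]) b x0, smul_inv_smul₀ x0, hm a ha _ (Submodule.smul_mem _ _ hb.1)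
      (by rw [Submodule.smul_mem_iff _ x0]; exact hb.2), hQb, hm1, hm0] at e1
    · exact zero_ne_one e1
    · rw [Q_smul, hQb, ← pow_two]
      exact fun e => hx (mul_right_cancel₀ c0' (e.trans (one_mul _).symm))
  have e0 := c0 c₀
  have e1 := hL c₀
  have e2 := cnt_level hQ c0' (k := j + 1) (by omega)
  rw [if_neg c0', add_zero] at e1
  have hY2 : q ^ (k + 2) = Y ^ 2 := by rw [hY, hj]; ring
  have hYq : q < Y := hY ▸ lt_self_pow₀ (by omega) (by omega)
  have e3 : ((L a c₀).card : ℤ) = Y ^ 2 + Y := by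
    zify [hq1.le] at e0
    rw [← hσ, hσ', e0, ← e1, ← hq, show 2 * (j + 1) = k + 2 by omega, hY2] at e2
    refine mul_right_cancel₀ (show (q - 1) * Y * (Y - 1) ≠ 0 from
      mul_ne_zero (mul_ne_zero (by omega) (by omega)) (by omega)) ?_
    linear_combination e2
  refine ⟨?_, fun h5 => ?_⟩
  · zify at hda
    rw [← e3, hq, hd, hda]
    exact le_add_of_nonneg_left (by positivity)
  have h1 : finrank ℂ (D.E ρ ψ a b) = 1 := hm1
  obtain ⟨v, l, hv⟩ := TSys.exists_eig0 ha h1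
  have hkey : ∀ c ∈ D.S, c ∈ perp Q {a, b} → ∀ u ∈ perp Q {a, b, c}, ρ (ei Q c u) v = v :=
    fun c hc h u hu => key_big ha h1 hv.mem (by omega) hc.1 h hu
  have ht := hv.total htr
  have h2 := lam_eq hψ hv (mem_perp1.1 hb.1) hb.2 (fun u hu x h h' => (hocc u hu x h h').trans hQb.symm) hkey
    (fun c hc h h' => hv.mid hψ hc (mem_perp1.2 ((polar_comm _ _ _).trans (mem_perp2.1 h).1))
      (mem_perp1.2 ((polar_comm _ _ _).trans (mem_perp2.1 h).2)) hb.2 h' (fun x x0 => by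
        refine (Submodule.eq_bot_iff _).1 (by_contra fun e => c0' ?_) _ (TSys.π_mem hc _ v)
        rw [← hocc c hc _ (fun e' => h' ?_) e, Q_smul, ha0, mul_zero]
        obtain ⟨t, e'⟩ := Submodule.mem_span_singleton.1 e'
        have t0 : t ≠ 0 := fun e => smul_ne_zero x0 a0 (by simp [← e', e])
        rw [← inv_smul_smul₀ t0 c, e']
        exact Submodule.smul_mem _ _ (Submodule.smul_mem _ _ (Submodule.subset_span (by simp))))
      fun f f0 f1 f2 => hkey c hc h _
        (mem_perp3.2 ⟨(polar_vec hQ f a).trans f1, (polar_vec hQ f b).trans f2, (polar_vec hQ f c).trans f0⟩))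
    hk rfl rfl rfl rfl rfl
  have hsing : ∀ x ∈ Submodule.span F {a, b}, Q x = 0 → x ∈ F ∙ a := fun x hx e => by
    obtain ⟨s, t, rfl⟩ := Submodule.mem_span_pair.1 hx
    have : t = 0 := by simpa [Q_add, Q_smul, ha0, polar_comm Q a, mem_perp1.1 hb.1, hQb, c0'] using e
    simpa [this] using Submodule.smul_mem _ s (Submodule.mem_span_singleton_self a)
  have h3 : cnt Q (Submodule.span F {a, b}) 0 = Fintype.card F := by
    rw [← TSys.card_line (F := F) a0, cnt]
    congr 1; ext x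
    simp only [Finset.mem_filter, Finset.mem_univ, true_and]
    exact ⟨fun h => hsing x h.1 h.2, fun h => ⟨Submodule.span_mono (by simp) h, (hFa x h).2⟩⟩
  have h4 : ∑ c with c ∈ D.S ∧ c ∈ Submodule.span F {a, b}, l (D.π ρ ψ c 0 v) = 0 :=
    Finset.sum_eq_zero fun c hc => by
      obtain ⟨-, h, h'⟩ := Finset.mem_filter.1 hc
      obtain ⟨t, rfl⟩ := Submodule.mem_span_singleton.1 (hsing c h' h.1)
      have t0 := left_ne_zero_of_smul h.2
      rw [TSys.π_eq_zero hψ h (b' := t • b) ?_ ((oE_smul ha0 b t0).ge hv.mem), map_zero]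
      rw [sub_zero, Submodule.span_singleton_smul_eq (IsUnit.mk0 _ t0), Submodule.smul_mem_iff _ t0]
      exact hb.2
  have h6 := cs_eq (Q := Q) hψ a b
  have b0 : Q b ≠ 0 := hQb.symm ▸ c0'
  have e4 := cnt_perp_insert hQ (s := {b}) (u := a) (mem_perp1.2 ((polar_comm _ _ _).trans (mem_perp1.1 hb.1))) ha0
    (fun e => by
      obtain ⟨t, rfl⟩ := Submodule.mem_span_singleton.1 e
      exact a0 (by rw [show t = 0 by simpa [Q_smul, b0] using ha0, zero_smul])) (k := k + 1)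
    (by rw [finrank_span_singleton fun e => b0 (by simp [e])]; omega) rfl 0
  rw [cnt_perp_nonsing hQ b0 (k := j + 1) (by omega), show 2 * (j + 1) = k + 2 by omega] at e4
  have e5 := hcast (c0 0)
  have e6 := hcast e4
  have e7 := hcast hda
  have e8 := congrArg (Int.cast : ℤ → ℂ) e3
  have e9 := congrArg (Int.cast : ℤ → ℂ) hY2
  have e10 := congrArg (Int.cast : ℤ → ℂ) hσ'
  rw [hS] at ht
  rw [h3, h4] at h2
  push_cast [Nat.cast_sub hq1.le, hq, hσ] at e5 e6 e7 e8 e9 e10 h2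
  have Y0 : (Y : ℂ) ≠ 0 := by exact_mod_cast (show Y ≠ 0 by omega)
  have Y1 : (Y : ℂ) - 1 ≠ 0 := by exact_mod_cast (show Y - 1 ≠ 0 by omega)
  have Y2 : (Y : ℂ) - Fintype.card F ≠ 0 := by exact_mod_cast (show Y - Fintype.card F ≠ 0 by omega)
  have f1 : (Fintype.card F : ℂ) ^ k = Y ^ 2 / Fintype.card F ^ 2 := by rw [← e9]; field_simp; ring
  have f2 : (cnt Q (perp Q {a}) 0 : ℂ) = Y ^ 2 - (Fintype.card F - 1) * Y := by
    linear_combination e10 - e5 - (Fintype.card F - 1 : ℂ) * e9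
  have f3 : (cnt Q (perp Q {a, b}) 0 : ℂ) = Y ^ 2 / Fintype.card F :=
    eq_div_of_mul_eq q0 (by linear_combination (-(Fintype.card F : ℂ)) * e6 + e9)
  have f4 : cs Q ψ a b = Y := mul_left_cancel₀ q1 (by rw [h6, f2, f3]; field_simp; ring)
  generalize (∑ c with c ∈ D.S, l (D.π ρ ψ c 0 v)) = T at *
  rw [f1, f2, f3, f4, e10] at h2
  have f5 : Fintype.card F * T = (Y + Fintype.card F) * (Y - 1) := by
    refine mul_left_cancel₀ (mul_ne_zero q0 Y2) ?_
    field_simp at h2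
    linear_combination h2
  refine Int.cast_injective (α := ℂ) (mul_left_cancel₀ (mul_ne_zero Y0 Y1) ?_)
  push_cast [hq, hd]
  rw [e10] at ht
  linear_combination (-(Fintype.card F : ℂ)) * ht + (finrank ℂ V : ℂ) * f5 +
    ((Fintype.card F * Y + 1) * (Y - 1) : ℂ) * (e7 + e8)

end CfsgLib.ClDeg
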