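import Mathlib
import Cfsg.Agent.Lib.ClDeg.OMain
import Cfsg.Agent.Lib.OrthE.OrderStd

/-!
# The least degree of a non-linear complex representation of the matrix groups `Ω`
-/

set_option autoImplicit false

namespace CfsgLib.ClDeg

open Module QuadraticMap CfsgLib.OrthE
open scoped _root_.Classical

theorem omega_cases {F : Type*} {ι : Type} [Field F] [Fintype F] [Fintype ι] [DecidableEq ι] {Q : QuadraticForm F (ι → F)}
    {f : (ι → F) → F} (hf : ∀ x, f x = Q x) (hQ : Nondeg Q) {k d : ℕ} (hk : Fintype.card ι = k + 4) (hk3 : 3 ≤ k)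
    (ρ : Representation ℂ (Cfsg.Omega F f) (Fin d → ℂ)) (hρ : ρ.IsIrreducible) (hd : 2 ≤ d)
    (hH : ¬ Fintype.card F - 1 ∣ 2 ∨ ∀ M : Submodule F (ι → F), (∀ w ∈ M, Q w = 0) → 2 * finrank F M < k + 4)
    {q σ : ℤ} (hq : q = Fintype.card F) (hσ : σ = Nat.card {v // Q v = 0}) :
    2 * (q ^ 2 - 1) * q ^ k ≤ q * d ∨
    (∃ e : ℕ, q * d * (q ^ 2 - 1) * ((q ^ (k + 1) + 1) * (e + q - 1) - (q + 1) * e) =
      (σ - 1) * (σ - (q - 1) * q ^ (k + 2) - q) * (e + q - 1)) ∨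
    (Fintype.card F - 1 ∣ 2 ∧ ∀ y : ℤ, ∀ j, k = 2 * j → y = q ^ (j + 1) → σ = q * y ^ 2 - q * y + y →
      y ^ 2 + y ≤ q * d ∧ (5 ≤ k → d * (q ^ 2 - 1) = (q * y + 1) * (y + 1))) := by
  have hN : finrank F (ι → F) = k + 4 := by rwa [finrank_fintype_fun_eq_card]
  let e := omegaEquiv hf (hQ.E_eq_commutator_of_finite (by omega))
  have := isIrreducible_comp ρ e.symm
  refine (orth_cases hQ (ρ.comp e.symm.toMonoidHom) hN hk3 (by simpa using hd)
    (hH.imp exists_pow_ne fun h => hN ▸ h) hq (by simp) (by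
      rw [hσ, cnt, Nat.card_eq_fintype_card, Fintype.card_subtype]; simp)).imp_right
    (Or.imp_right (And.imp_left fun h => by_contra fun h' => ?_))
  obtain ⟨x, x0, hx⟩ := exists_pow_ne h'
  exact hx (h x x0)

theorem exists_geom (q : ℤ) (n : ℕ) : ∃ E, (q ^ n) ^ 2 - 1 = (q ^ 2 - 1) * E := by
  have := sub_dvd_pow_sub_pow (q ^ 2) 1 n
  rwa [one_pow, ← pow_mul, pow_mul'] at this

theorem odd_final {q d : ℤ} {m : ℕ} (hq : 2 ≤ q) (h : 2 * (q ^ 2 - 1) * q ^ (2 * m + 3) ≤ q * d ∨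
    ∃ e : ℕ, q * d * (q ^ 2 - 1) * ((q ^ (2 * m + 3 + 1) + 1) * (e + q - 1) - (q + 1) * e) =
      (q ^ (2 * (m + 3)) - 1) * (q ^ (2 * (m + 3)) - (q - 1) * q ^ (2 * m + 3 + 2) - q) * (e + q - 1)) :
    q ^ (2 * (m + 3)) - 1 ≤ (q ^ 2 - 1) * d := by
  have h4 : 4 ≤ q ^ 2 := by nlinarith
  rcases h with h | ⟨e, h⟩
  · have h1 := mul_le_mul_of_nonneg_left h (show 0 ≤ q ^ 2 - 1 by omega)
    have h2 := mul_le_mul_of_nonneg_right (show (q ^ 2) ^ 2 ≤ 2 * (q ^ 2 - 1) ^ 2 by nlinarith)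
      (show 0 ≤ q ^ (2 * m + 3) by positivity)
    refine le_of_mul_le_mul_left ?_ (show 0 < q by omega)
    linear_combination h1 + h2 + hq
  · obtain ⟨E, hE⟩ := exists_geom q (m + 2)
    have h1 : q ^ 2 ≤ q ^ (m + 2) := pow_le_pow_right₀ (by omega) (by omega)
    have := odd_arith (R := (q ^ (m + 2)) ^ 2) (E := E) (d := d) (e := e) hq (by nlinarith) (by omega) (by omega)
      (mul_left_cancel₀ (show q ≠ 0 by omega) (by linear_combination h))
    linear_combination this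

theorem even_final {q d ε : ℤ} {j : ℕ} (hq : 2 ≤ q) (hj : 2 ≤ j) (hε : ε = 1 ∧ 3 ≤ q ∨ ε = -1) {σ : ℤ}
    (hσ : σ = q ^ (2 * (j + 1) + 1) + ε * (q ^ (j + 1 + 1) - q ^ (j + 1)))
    (h : 2 * (q ^ 2 - 1) * q ^ (2 * j) ≤ q * d ∨
    ∃ e : ℕ, q * d * (q ^ 2 - 1) * ((q ^ (2 * j + 1) + 1) * (e + q - 1) - (q + 1) * e) =
      (σ - 1) * (σ - (q - 1) * q ^ (2 * j + 2) - q) * (e + q - 1)) :
    (q ^ (j + 2) - ε) * (q ^ (j + 1) + ε * q) ≤ (q ^ 2 - 1) * d := by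
  have h4 : 4 ≤ q ^ 2 := by nlinarith
  have hx : q ^ 2 ≤ q ^ j := pow_le_pow_right₀ (by omega) hj
  rcases h with h | ⟨e, h⟩
  · have h1 := mul_le_mul_of_nonneg_left h (show 0 ≤ q ^ 2 - 1 by omega)
    refine le_of_mul_le_mul_left ?_ (show 0 < q by omega)
    rw [pow_mul'] at h1
    rw [pow_add, pow_succ q j]
    generalize q ^ j = x at *
    rcases hε with ⟨rfl, h3⟩ | rfl
    · have h9 : 9 ≤ q ^ 2 := by nlinarith
      have h5 := mul_le_mul hx (show q ^ 2 - 1 ≤ (q ^ 2) ^ 2 - 4 * q ^ 2 + 2 by nlinarith) (by omega) (by omega)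
      have h6 := mul_le_mul_of_nonneg_left h5 (show 0 ≤ x by omega)
      linear_combination h1 + h6 + h4
    · have h2 := mul_le_mul_of_nonneg_right (show (q ^ 2) ^ 2 ≤ 2 * (q ^ 2 - 1) ^ 2 by nlinarith) (sq_nonneg x)
      have h5 : 0 ≤ q ^ 2 * ((q ^ 2 - 1) * x + 1) := mul_nonneg (by omega) (by nlinarith)
      linear_combination h1 + h2 + h5
  · obtain ⟨E, hE⟩ := exists_geom q (j + 1)
    have hε' : ε = 1 ∨ ε = -1 := hε.imp_left And.left
    have := even_arith (x := q ^ j) (E := E) (d := d) (e := e) hq hx (by rw [← hE]; ring) (by omega) hε'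
      (mul_left_cancel₀ (show q ≠ 0 by omega) (by
        rw [hσ] at h
        rcases hε' with rfl | rfl <;> linear_combination h))
    linear_combination this

end CfsgLib.ClDeg
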