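import Mathlib
import Cfsg.Agent.Lib.ClDeg.SpGeo

/-!
# Representations of `Sp` in which the Siegel radical has weights of rank at most one
-/

set_option autoImplicit false

namespace CfsgLib.ClDeg

open Module CfsgLib.Forms CfsgLib.Symp CfsgLib.LS CfsgLib.MinDeg
open scoped _root_.Classical

variable {F : Type*} [Field F] [Fintype F] {m : ℕ} {V : Type*} [AddCommGroup V] [Module ℂ V]
  (ρ : Representation ℂ (Matrix.symplecticGroup (Fin m) F) V) (ψ : AddChar F ℂ)

/-- eigenspaces of a transvection group -/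
abbrev tE (e : Fin m ⊕ Fin m → F) (a : F) : Submodule ℂ V := ex ρ (spT e) (ψ.mulShift a)

/-- the corresponding projections -/
noncomputable abbrev tP (e : Fin m ⊕ Fin m → F) (a : F) : End ℂ V := pj ρ (spT e) (ψ.mulShift a)

/-- weight vectors for the transvections with centre in an isotropic plane -/
def Wt (e x : Fin m ⊕ Fin m → F) (v : V) (a b c : F) : Prop :=
  ∀ s t : F, v ∈ tE ρ ψ (s • e + t • x) (s ^ 2 * a + s * t * c + t ^ 2 * b)

/-- all weights have rank at most one -/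
def Rk1 : Prop := ∀ e x, spB (Fin m) F e x = 0 → ∀ R : End ℂ V,
  (∀ v a b c, v ≠ 0 → c ^ 2 = 4 * a * b → Wt ρ ψ e x v a b c → R v = 0) → R = 0

/-- the eigenvalues of the transvections are those of the Weil representation -/
def SqEig : Prop := ∀ e a, ∀ v ∈ tE ρ ψ e a, v ≠ 0 → ∃ s, a = 2⁻¹ * s ^ 2

variable {ρ ψ} {e x f : Fin m ⊕ Fin m → F} {v : V} {a b c : F}

omit [Fintype F] in
theorem mem_tE : v ∈ tE ρ ψ e a ↔ ∀ c, ρ (spT e c) v = ψ (a * c) • v := Iff.rfl

omit [Fintype F] in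
theorem isChar_of_ne (hψ : ψ ≠ 1) : IsChar ψ := ⟨ψ.map_add_eq_mul, ψ.map_zero_eq_one, AddChar.ne_one_iff.1 hψ⟩

theorem tP_apply (hψ : ψ ≠ 1) (hv : v ∈ tE ρ ψ e b) (a : F) : tP ρ ψ e a v = if b = a then v else 0 := by
  split_ifs with h
  · exact pj_eq_self (h ▸ hv)
  · by_contra h'
    refine h ((isChar_of_ne hψ).eq_of fun t => by_contra fun e => h' (pj_eq_zero (spT_add _) (hv t) ?_))
    simpa [mul_comm] using e

omit [Fintype F] in
theorem tE_conj (hv : v ∈ tE ρ ψ e a) (g : Matrix.symplecticGroup (Fin m) F) : ρ g v ∈ tE ρ ψ (g • e) a := fun c => by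
  rw [← conj_spT, apply_conj, ← map_smul, ← hv c]
  congr 3; group

theorem tP_conj (g : Matrix.symplecticGroup (Fin m) F) (v : V) : tP ρ ψ (g • e) a (ρ g v) = ρ g (tP ρ ψ e a v) := by
  simp only [pj_apply, ← conj_spT, map_smul, map_sum, map_mul, End.mul_apply, inv_apply_apply]

omit [Fintype F] in
theorem Wt.left (h : Wt ρ ψ e x v a b c) : v ∈ tE ρ ψ e a := by simpa using h 1 0

omit [Fintype F] in
theorem Wt.right (h : Wt ρ ψ e x v a b c) : v ∈ tE ρ ψ x b := by simpa using h 0 1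

omit [Fintype F] in
theorem Wt.spX (h : Wt ρ ψ e x v a b c) (t : F) : ρ (spX e (t • x)) v = ψ (t * c) • v := by
  have h1 := mem_tE.1 (h 1 t) 1
  have h2 := mem_tE.1 (h 0 t) (-1)
  rw [one_smul] at h1
  rw [zero_smul, zero_add] at h2
  simp only [ClDeg.spX, map_mul, End.mul_apply, map_smul, h1, h2, mem_tE.1 h.left, smul_smul,
    ← AddChar.map_add_eq_mul]
  congr 2; ring

theorem rk1_of_small [FiniteDimensional ℂ V] (hm : 2 ≤ m) (hψ : ψ ≠ 1) (h : 2 * (Fintype.card F + 1) * finrank ℂ V <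
    (Fintype.card F ^ m - 1) * (Fintype.card F ^ m - Fintype.card F)) : Rk1 ρ ψ := by
  intro e x hex R hR
  obtain ⟨g, y, z, rfl, rfl⟩ := exists_lag hm hex
  let ρ' : Matrix.symplecticGroup (Fin m) F →* End ℂ V := ρ.comp (MulAut.conj g).toMonoidHom
  have hK : ringChar ℂ ≠ ringChar F := by
    rw [ringChar.eq_zero]
    exact (CharP.char_is_prime F _).ne_zero.symm
  ext v
  have hv : v ∈ ⨆ l, wsp (fun S => ρ' (spS S)) l := (iSup_wsp_eq_top _
    (fun x y => by rw [Commute, SemiconjBy, ← map_mul, ← map_mul, ← spS_add, ← spS_add, add_comm])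
    (natCast_ringChar_ne_zero hK) fun x => by rw [← map_pow, pow_ringChar spS_add, map_one]).ge trivial
  induction hv using Submodule.iSup_induction' with
  | zero => simp
  | add x y _ _ hx hy => rw [map_add, hx, hy, map_add]
  | mem l v hv =>
    rcases eq_or_ne v 0 with rfl | v0
    · simp
    obtain ⟨φ, hφ⟩ := (isChar_of_ne hψ).exists_dual (χ := l)
      (fun x y => weight_mul v0 hv (by rw [spS_add, map_mul]))
      (weight_one v0 hv (by rw [eq_one_of_add (V := symS (Fin m) F) spS_add, map_one]))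
    obtain rfl := funext hφ
    refine hR v (qOf φ y) (qOf φ z) _ v0 (sub_eq_zero.1 (by_contra fun e => h.not_ge (by
      simpa using sp_rank_two_bound ρ' (isChar_of_ne hψ) (mem_wts_one.2 ⟨v, v0, hv⟩) e))) fun s t c => ?_
    rw [← qf_comb, ← smul_comm, ← smul_comm g, ← smul_add, ← conj_spT,
      show s • Sum.elim y (0 : Fin m → F) + t • Sum.elim z 0 = Sum.elim (s • y + t • z) 0 by ext (k | k) <;> simp,
      spT_elim]
    refine (hv _).trans ?_
    rw [AddChar.mulShift_apply, mul_comm, ← smul_eq_mul, qOf_apply, ← map_smul]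

namespace Rk1

variable (h : Rk1 ρ ψ) {R : End ℂ V}
include h

omit [Fintype F] in
theorem ext1 (e : Fin m ⊕ Fin m → F) (hR : ∀ a, ∀ v ∈ tE ρ ψ e a, v ≠ 0 → R v = 0) : R = 0 :=
  h e 0 (by simp) R fun v a _ _ v0 _ hw => hR a v hw.left v0

variable (hψ : ψ ≠ 1)
include hψ

theorem on_E (hx : spB (Fin m) F e x = 0) (hv : v ∈ tE ρ ψ e a)
    (hR : ∀ w b c, w ≠ 0 → c ^ 2 = 4 * a * b → Wt ρ ψ e x w a b c → R w = 0) : R v = 0 := by
  have := h e x hx (R * tP ρ ψ e a) fun w a' b c w0 hc hw => by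
    rw [End.mul_apply, tP_apply hψ hw.left]
    split_ifs with e
    · exact hR w b c w0 (e ▸ hc) (e ▸ hw)
    · exact map_zero _
  simpa [tP_apply hψ hv] using LinearMap.congr_fun this v

theorem orth (hx : spB (Fin m) F e x = 0) (hv : v ∈ tE ρ ψ e a) (h2 : (2 : F) ≠ 0) (hab : ¬ IsSquare (a * b)) :
    tP ρ ψ x b v = 0 := h.on_E hψ hx hv fun w b' c _ hc hw => by
  rw [tP_apply hψ hw.right, if_neg]
  rintro rfl
  exact hab ⟨c / 2, by field_simp; linear_combination -hc⟩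

variable [ρ.IsIrreducible] (hV : 2 ≤ finrank ℂ V)
include hV

theorem kill (hfe : spB (Fin m) F f e ≠ 0) (he : ∀ a ≠ 0, ∀ v ∈ tE ρ ψ e a, v ≠ 0 → R v = 0)
    (hf : ∀ a ≠ 0, ∀ v ∈ tE ρ ψ f a, v ≠ 0 → R v = 0) : R = 0 := by
  let S : Subgroup (Matrix.symplecticGroup (Fin m) F) :=
    { carrier := {g | ∀ v, R (ρ g v) = R v}
      mul_mem' := fun ha hb v => by rw [map_mul, End.mul_apply, ha, hb]
      one_mem' := fun v => by simp
      inv_mem' := fun {g} hg v => by rw [← hg, apply_inv_apply] }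
  have key : ∀ e, (∀ a ≠ 0, ∀ v ∈ tE ρ ψ e a, v ≠ 0 → R v = 0) → ∀ g, g • e = e → (∀ v ∈ tE ρ ψ e 0, ρ g v = v) →
      g ∈ S := fun e he g hg hg' => LinearMap.congr_fun (sub_eq_zero.1 (h.ext1 (R := R * ρ g - R) e fun a v hv v0 => by
    rw [LinearMap.sub_apply, End.mul_apply]
    rcases eq_or_ne a 0 with rfl | ha
    · rw [hg' v hv, sub_self]
    · rw [he a ha v hv v0, he a ha _ (hg ▸ tE_conj hv g) fun e => v0 (by rw [← inv_apply_apply (ρ := ρ) g v, e, map_zero]),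
        sub_self]))
  have hT : ∀ e, (∀ a ≠ 0, ∀ v ∈ tE ρ ψ e a, v ≠ 0 → R v = 0) → ∀ c, spT e c ∈ S := fun e he c =>
    key e he _ (by simp [spT_smul, spB_self]) fun v hv => by simpa using mem_tE.1 hv c
  have hS := spT_eq_top hfe (hT e he) (hT f hf) fun x hx => key e he _ (by simp [spX_smul hx, spB_self, hx])
    fun v hv => sub_eq_zero.1 (h.on_E hψ (R := ρ (spX e x) - 1) hx hv fun w b c _ hc hw => by
      have := hw.spX 1
      rw [show c = 0 by simpa using hc] at this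
      simpa [sub_eq_zero] using this)
  have hg : ∀ g v, R (ρ g v) = R v := fun g => (hS.ge trivial : g ∈ S)
  refine LinearMap.ker_eq_top.1 ((CharDeg.eq_bot_or_eq_top_of_invariant ρ _ fun g v hv => (hg g v).trans hv).resolve_left
    fun e => ker_ne_top_of_irreducible ρ ‹_› hV (eq_top_iff.2 fun g _ => LinearMap.ext fun v => ?_))
  exact LinearMap.ker_eq_bot.1 e (hg g v)

variable (hm : 2 ≤ m) (h2 : (2 : F) ≠ 0)
include hm h2

theorem tP_eq_zero (hv : v ∈ tE ρ ψ e a) (hab : ¬ IsSquare (a * b)) (x : Fin m ⊕ Fin m → F) : tP ρ ψ x b v = 0 := by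
  by_cases hx : spB (Fin m) F e x = 0
  · exact h.orth hψ hx hv h2 hab
  obtain ⟨e', f', h0, h1, h3⟩ := exists_perp_pair hm hx
  have key : ∀ e', spB (Fin m) F e' e = 0 ∧ spB (Fin m) F e' x = 0 → ∀ c ≠ 0, ∀ y ∈ tE ρ ψ e' c, y ≠ 0 →
      (tP ρ ψ x b * tP ρ ψ e a) y = 0 := fun e' he c hc y hy _ => by
    rw [End.mul_apply]
    by_cases h4 : IsSquare (c * a)
    · refine h.orth hψ he.2 (a := c) (pj_mem_of_stab _ fun t => ?_) h2 fun h5 => hab ?_
      · simpa [spT_smul, he.1] using tE_conj hy (spT e t)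
      · obtain ⟨r, hr⟩ := h4.mul h5
        exact ⟨r / c, by field_simp; linear_combination hr⟩
    · rw [h.orth hψ he.1 hy h2 h4, map_zero]
  simpa [tP_apply hψ hv] using LinearMap.congr_fun (h.kill hψ hV h0 (key e' h1) (key f' h3)) v

theorem exists_class : ∃ a₀ ≠ 0, (∃ e, ∃ v ∈ tE ρ ψ e a₀, v ≠ 0) ∧
    ∀ e a, ∀ v ∈ tE ρ ψ e a, v ≠ 0 → IsSquare (a₀ * a) := by
  obtain ⟨a₀, h0, e₀, v₀, hv₀, v0⟩ : ∃ a₀ ≠ 0, ∃ e, ∃ v ∈ tE ρ ψ e a₀, v ≠ 0 := by
    by_contra h'
    push Not at h'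
    refine ker_ne_top_of_irreducible ρ ‹_› hV (eq_top_of_spT_mem _ fun w c _ => sub_eq_zero.1 (h.ext1 w fun a v hv v0 => ?_))
    obtain rfl : a = 0 := by_contra fun e => v0 (h' a e w v hv)
    simpa [sub_eq_zero] using mem_tE.1 hv c
  refine ⟨a₀, h0, ⟨e₀, v₀, hv₀, v0⟩, fun e a v hv v1 => by_contra fun hs => v1 ?_⟩
  have := (CharDeg.eq_bot_or_eq_top_of_invariant ρ (⨅ x, LinearMap.ker (tP ρ ψ x a)) fun g w hw => by
    simp only [Submodule.mem_iInf, LinearMap.mem_ker] at hw ⊢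
    intro x
    rw [← smul_inv_smul g x, tP_conj, hw, map_zero]).resolve_left fun e => v0 (by
      rw [← Submodule.mem_bot ℂ, ← e, Submodule.mem_iInf]
      exact h.tP_eq_zero hψ hV hm h2 hv₀ hs)
  simpa [tP_apply hψ hv] using (Submodule.mem_iInf _).1 (this.ge (Submodule.mem_top (x := v))) e

end Rk1

end CfsgLib.ClDeg
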