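import Mathlib
import Cfsg.Agent.Lib.ClDeg.SpRk
import Cfsg.Agent.Lib.LS.Weil

/-!
# Recognition of the Weil representations of `Sp`
-/

set_option autoImplicit false

namespace CfsgLib.ClDeg

open Module CfsgLib.Forms CfsgLib.Symp CfsgLib.LS CfsgLib.MinDeg
open scoped _root_.Classical Matrix

section Abstract

variable {W M G V : Type*} [AddCommGroup W] [Module ℂ W] [FiniteDimensional ℂ W] [AddCommGroup M] [Group G]
  [DistribMulAction G M] [AddCommGroup V] [Module ℂ V] (D : WeilData W M G)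

theorem hom_eq_of_smul [Nontrivial V] {ρ τ : G →* End ℂ V} (hG : commutator G = ⊤)
    (hgen : ∀ S : Subgroup G, (∀ g, (∃ a : ℂ, ρ g = a • τ g) → g ∈ S) → S = ⊤) (g : G) : ρ g = τ g := by
  have e : ∀ {g} {a : ℂ}, ρ g = a • τ g → τ g⁻¹ = a • ρ g⁻¹ := fun {g a} ha => by
    rw [← mul_one (τ _), ← map_one ρ, ← mul_inv_cancel g, map_mul, ha, smul_mul_assoc, mul_smul_comm,
      ← mul_assoc, ← map_mul, inv_mul_cancel, map_one, one_mul]
  let S : Subgroup G :=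
    { carrier := {g | ∃ a : ℂ, ρ g = a • τ g}
      mul_mem' := fun ⟨a, ha⟩ ⟨b, hb⟩ => ⟨a * b, by rw [map_mul, map_mul, ha, hb, smul_mul_smul_comm]⟩
      one_mem' := ⟨1, by simp⟩
      inv_mem' := fun {g} ⟨a, ha⟩ => by
        have : a ≠ 0 := fun e' => by simpa [e ha, e'] using map_mul τ g g⁻¹
        exact ⟨a⁻¹, by rw [e ha, inv_smul_smul₀ this]⟩ }
  have h4 : ∀ g, ∃ a : ℂ, ρ g = a • τ g := fun g => ((hgen S fun _ h => h).ge trivial : g ∈ S)
  refine (show (⊤ : Subgroup G) ≤ MonoidHom.eqLocus ρ τ from ?_) trivial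
  rw [← hG, commutator_eq_closure, Subgroup.closure_le]
  rintro _ ⟨g, h, rfl⟩
  obtain ⟨a, ha⟩ := h4 g
  obtain ⟨b, hb⟩ := h4 h
  change ρ _ = τ _
  simp only [commutatorElement_def, map_mul, ha, hb, e ha, e hb, smul_mul_assoc, mul_smul_comm]

omit [FiniteDimensional ℂ W] in
theorem constr_mul {γ : M → End ℂ V}
    (hγ : ∀ u v, (2 : ℂ) • (γ u * γ v) = D.c u v • γ (u + v) + D.c (-u) v • γ (-u + v)) (x : D.C) (y : End ℂ W) :
    D.b.constr ℂ γ (x.1 * y) = D.b.constr ℂ γ x.1 * D.b.constr ℂ γ y := by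
  have e : ∀ u, D.σ * D.b u * D.σ = D.b (-u) := fun u => by rw [D.σ_b, mul_assoc, D.σ_sq, mul_one]
  have := D.b.ext (f₁ := ((LinearMap.mul ℂ _).compr₂ (D.b.constr ℂ γ)).comp (1 + LinearMap.mulLeftRight ℂ (D.σ, D.σ)))
    (f₂ := (2 : ℂ) • (LinearMap.mul ℂ _).compl₁₂ (D.b.constr ℂ γ) (D.b.constr ℂ γ)) fun u => D.b.ext fun v => by
      simp [e, D.b_mul, hγ]
  have h : D.b.constr ℂ γ ((x.1 + D.σ * x.1 * D.σ) * y) = (2 : ℂ) • (D.b.constr ℂ γ x.1 * D.b.constr ℂ γ y) :=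
    LinearMap.congr_fun (LinearMap.congr_fun this x.1) y
  rw [D.mem_C.1 x.2, mul_assoc, D.σ_sq, mul_one, ← two_smul ℂ, smul_mul_assoc, map_smul] at h
  exact smul_right_injective _ two_ne_zero h

/-- the constituents of the Weil representation -/
noncomputable def wRep (ε : ℂ) : Representation ℂ G (D.E ε) := (D.res ε).comp D.ω

theorem weil_recog (ρ : Representation ℂ G V) [ρ.IsIrreducible] (hG : commutator G = ⊤) (γ : M → End ℂ V)
    (h0 : γ 0 = 1) (hγ : ∀ u v, (2 : ℂ) • (γ u * γ v) = D.c u v • γ (u + v) + D.c (-u) v • γ (-u + v))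
    (hgen : ∀ S : Subgroup G, (∀ g, (∃ T, D.Int g T ∧ D.b.constr ℂ γ T = ρ g) → g ∈ S) → S = ⊤)
    (hirr : ∀ ε : ℂ, ε * ε = 1 → (wRep D ε).IsIrreducible) :
    ∃ ε : ℂ, ε * ε = 1 ∧ ρ.character = (wRep D ε).character := by
  have := CharDeg.nontrivial_of_isIrreducible ρ
  have h2 := constr_mul D hγ
  have h3 : D.b.constr ℂ γ 1 = 1 := by rw [← D.b_zero, Basis.constr_basis, h0]
  generalize D.b.constr ℂ γ = θ at *
  let τ : G →* End ℂ V := ⟨⟨fun g => θ (D.ω g).1, by simp [h3]⟩, fun g h => by simp [h2]⟩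
  have h5 : ∀ g, ρ g = θ (D.ω g).1 := hom_eq_of_smul (τ := τ) hG fun S hS => hgen S fun g ⟨T, hT, e⟩ => hS g (by
    obtain ⟨a, rfl⟩ := (D.ω_int g).unique hT (D.ω_mul_inv g) (by simpa using D.ω_mul_inv g⁻¹)
    exact ⟨a, by rw [← e, map_smul]; rfl⟩)
  by_contra h
  push Not at h
  have h6 : ∀ (ξ : Dual ℂ W) (v : V) (ε : ℂ), ε * ε = 1 → ∀ w ∈ D.E ε, θ (ξ.smulRight w) v = 0 := fun ξ v ε hε w hw => by
    have := hirr ε hε
    let Φ := LinearMap.intertwiningMap_of_isIntertwiningMap (wRep D ε) ρ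
      (LinearMap.applyₗ v ∘ₗ θ ∘ₗ LinearMap.smulRightₗ ξ ∘ₗ (D.E ε).subtype) fun g w => by
        change θ (ξ.smulRight ((D.ω g).1 w)) v = ρ g (θ (ξ.smulRight w) v)
        rw [h5, ← End.mul_apply, ← h2]
        congr 2; ext; simp
    exact DFunLike.congr_fun ((Representation.IsIrreducible.bijective_or_eq_zero Φ).resolve_left fun e =>
      h ε hε (Representation.char_iso (Φ.ofBijective e)).symm) ⟨w, hw⟩
  have h7 : ∀ (ξ : Dual ℂ W) (w : W), θ (ξ.smulRight w) = 0 := fun ξ w => LinearMap.ext fun v => by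
    have e : ∀ x, D.σ (D.σ x) = x := LinearMap.congr_fun D.σ_sq
    have e1 := h6 ξ v 1 (by simp) (w + D.σ w) (by simp [e, add_comm])
    have e2 := h6 ξ v (-1) (by simp) (w - D.σ w) (by simp [e])
    rw [show ξ.smulRight w = (2⁻¹ : ℂ) • (ξ.smulRight (w + D.σ w) + ξ.smulRight (w - D.σ w)) by
      ext; simp only [LinearMap.smulRight_apply, LinearMap.smul_apply, LinearMap.add_apply]; module,
      map_smul, map_add, LinearMap.smul_apply, LinearMap.add_apply, e1, e2]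
    simp
  have h8 : (1 : End ℂ W) = ∑ i, ((finBasis ℂ W).coord i).smulRight (finBasis ℂ W i) := by ext; simp
  rw [h8, map_sum, Finset.sum_eq_zero fun i _ => h7 _ _] at h3
  exact zero_ne_one h3

end Abstract

variable {F : Type*} [Field F] [Fintype F] {m : ℕ} {V : Type*} [AddCommGroup V] [Module ℂ V]
  (ρ : Representation ℂ (Matrix.symplecticGroup (Fin m) F) V) (ψ : AddChar F ℂ)

/-- the operators imitating the symmetrised Weyl operators -/
noncomputable def gam (x : Fin m ⊕ Fin m → F) : End ℂ V :=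
  ∑ a, (if h : ∃ s : F, a = 2⁻¹ * s ^ 2 then 2⁻¹ * (ψ h.choose + ψ (-h.choose)) else 0 : ℂ) • tP ρ ψ x a

variable {ρ ψ} (hψ : ψ ≠ 1) (h2 : (2 : F) ≠ 0)
include hψ h2

theorem gam_apply {x : Fin m ⊕ Fin m → F} {s : F} {v : V} (hv : v ∈ tE ρ ψ x (2⁻¹ * s ^ 2)) :
    gam ρ ψ x v = (2⁻¹ * (ψ s + ψ (-s))) • v := by
  simp only [gam, LinearMap.sum_apply, LinearMap.smul_apply, tP_apply hψ hv, smul_ite, smul_zero, Finset.sum_ite_eq,
    Finset.mem_univ, if_true]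
  have h : ∃ t : F, 2⁻¹ * s ^ 2 = 2⁻¹ * t ^ 2 := ⟨s, rfl⟩
  rw [dif_pos h]
  rcases sq_eq_sq_iff_eq_or_eq_neg.1 (mul_left_cancel₀ (inv_ne_zero h2) h.choose_spec).symm with e | e
  · rw [e]
  · rw [e, neg_neg, add_comm]

theorem Rk1.gam_E (h : Rk1 ρ ψ) {e x : Fin m ⊕ Fin m → F} {s : F} (hs : s ≠ 0) {v : V}
    (hv : v ∈ tE ρ ψ e (2⁻¹ * s ^ 2)) (hx : spB (Fin m) F e x = 0) :
    gam ρ ψ x v = (2⁻¹ : ℂ) • (ρ (spX e (s⁻¹ • x)) v + ρ (spX e (s⁻¹ • -x)) v) :=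
  sub_eq_zero.1 (h.on_E hψ (R := gam ρ ψ x - (2⁻¹ : ℂ) • (ρ (spX e (s⁻¹ • x)) + ρ (spX e (s⁻¹ • -x)))) hx hv
    fun w b c _ hc hw => by
      obtain rfl : b = 2⁻¹ * (s⁻¹ * c) ^ 2 := by
        rw [mul_pow, hc, show (4 : F) = 2 * 2 by norm_num]; field_simp
      simp only [LinearMap.sub_apply, LinearMap.smul_apply, LinearMap.add_apply, smul_neg, ← neg_smul, hw.spX,
        gam_apply hψ h2 hw.right, ← add_smul, smul_smul, neg_mul, sub_self])

theorem Rk1.gam_mul [FiniteDimensional ℂ V] [ρ.IsIrreducible] (h : Rk1 ρ ψ) (hs : SqEig ρ ψ) (hV : 2 ≤ finrank ℂ V)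
    (hm : 2 ≤ m) (u v : Fin m ⊕ Fin m → F) : (2 : ℂ) • (gam ρ ψ u * gam ρ ψ v) =
      ψ (-(2⁻¹ * spB (Fin m) F u v)) • gam ρ ψ (u + v) + ψ (-(2⁻¹ * spB (Fin m) F (-u) v)) • gam ρ ψ (-u + v) := by
  rw [← sub_eq_zero]
  by_cases hB : spB (Fin m) F u v = 0
  · refine h u v hB _ fun w a b c w0 hc hw => ?_
    obtain ⟨s, rfl⟩ := hs _ _ w hw.left w0
    obtain ⟨t, rfl, rfl⟩ : ∃ t, b = 2⁻¹ * t ^ 2 ∧ c = s * t := by
      obtain ⟨t, rfl⟩ := hs _ _ w hw.right w0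
      rcases sq_eq_sq_iff_eq_or_eq_neg.1 (show c ^ 2 = (s * t) ^ 2 by rw [hc]; field_simp; ring) with e | e
      · exact ⟨t, rfl, e⟩
      · exact ⟨-t, by ring, by rw [e]; ring⟩
    have e1 : w ∈ tE ρ ψ (u + v) (2⁻¹ * (s + t) ^ 2) := by convert hw 1 1 using 2 <;> [simp; (field_simp; ring)]
    have e2 : w ∈ tE ρ ψ (-u + v) (2⁻¹ * (-s + t) ^ 2) := by convert hw (-1) 1 using 2 <;> [simp; (field_simp; ring)]
    simp only [LinearMap.sub_apply, LinearMap.smul_apply, LinearMap.add_apply, End.mul_apply, map_smul,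
      gam_apply hψ h2 hw.left, gam_apply hψ h2 hw.right, gam_apply hψ h2 e1, gam_apply hψ h2 e2, map_neg,
      LinearMap.neg_apply, hB, neg_add, neg_neg, AddChar.map_add_eq_mul, neg_zero, mul_zero, AddChar.map_zero_eq_one]
    module
  obtain ⟨e, f, h0, h1, h3⟩ := exists_perp_pair hm hB
  have key : ∀ e, spB (Fin m) F e u = 0 ∧ spB (Fin m) F e v = 0 → ∀ a ≠ 0, ∀ y ∈ tE ρ ψ e a, y ≠ 0 →
      ((2 : ℂ) • (gam ρ ψ u * gam ρ ψ v) - (ψ (-(2⁻¹ * spB (Fin m) F u v)) • gam ρ ψ (u + v) +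
        ψ (-(2⁻¹ * spB (Fin m) F (-u) v)) • gam ρ ψ (-u + v))) y = 0 := fun e ⟨hu, hv⟩ a ha y hy y0 => by
    obtain ⟨s, rfl⟩ := hs _ _ y hy y0
    have s0 : s ≠ 0 := by rintro rfl; simp at ha
    have e1 : ∀ x, spB (Fin m) F e x = 0 → ρ (spX e (s⁻¹ • x)) y ∈ tE ρ ψ e (2⁻¹ * s ^ 2) := fun x hx => by
      have hx' : spB (Fin m) F e (s⁻¹ • x) = 0 := by simp [hx]
      simpa [spX_smul hx', spB_self, hx] using tE_conj hy (spX e (s⁻¹ • x))
    have e2 : ∀ x x', spB (Fin m) F e x = 0 → spB (Fin m) F e x' = 0 →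
        ρ (spX e (s⁻¹ • x)) (ρ (spX e (s⁻¹ • x')) y) =
          ψ (-(2⁻¹ * spB (Fin m) F x x')) • ρ (spX e (s⁻¹ • (x + x'))) y := fun x x' hx hx' => by
      rw [← End.mul_apply, ← map_mul, spX_mul (by simp [hx]) (by simp [hx']), map_mul, End.mul_apply, mem_tE.1 hy,
        map_smul, smul_add]
      congr 2
      simp only [map_smul, LinearMap.smul_apply, smul_eq_mul]
      field_simp
    have hu' : spB (Fin m) F e (-u) = 0 := by simp [hu]
    have hv' : spB (Fin m) F e (-v) = 0 := by simp [hv]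
    simp only [LinearMap.sub_apply, LinearMap.smul_apply, LinearMap.add_apply, End.mul_apply, map_smul, map_add,
      h.gam_E hψ h2 s0 hy hv, h.gam_E hψ h2 s0 (e1 _ hv) hu, h.gam_E hψ h2 s0 (e1 _ hv') hu,
      h.gam_E hψ h2 s0 hy (show spB (Fin m) F e (u + v) = 0 by simp [hu, hv]),
      h.gam_E hψ h2 s0 hy (show spB (Fin m) F e (-u + v) = 0 by simp [hu, hv]),
      e2 _ _ hu hv, e2 _ _ hu hv', e2 _ _ hu' hv, e2 _ _ hu' hv', neg_add, neg_neg, map_neg, LinearMap.neg_apply]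
    module
  exact h.kill hψ hV h0 (key e h1) (key f h3)

/-- the kernel of the operator of a transvection in the Weil representation -/
noncomputable def kerT (ψ : AddChar F ℂ) (c t : F) : ℂ := (Fintype.card F : ℂ)⁻¹ * ∑ s, ψ (2⁻¹ * s ^ 2 * c - s * t)

omit hψ in
theorem kerT_shift (c t β : F) :
    kerT ψ c (t + c * β) * ψ (2⁻¹ * ((t + c * β) * β)) = kerT ψ c t * ψ (-(2⁻¹ * (t * β))) := by
  simp only [kerT, mul_assoc, Finset.sum_mul, ← AddChar.map_add_eq_mul]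
  congr 1
  refine (Fintype.sum_equiv (Equiv.addRight β) _ _ fun s => ?_).symm
  congr 1
  simp only [Equiv.coe_addRight]
  field_simp
  ring

omit h2 in
theorem sum_kerT (c s : F) : ∑ t, kerT ψ c t * ψ (t * s) = ψ (2⁻¹ * s ^ 2 * c) := by
  simp only [kerT, mul_assoc, Finset.sum_mul, ← Finset.mul_sum]
  rw [Finset.sum_comm, Finset.sum_congr rfl fun r _ => show ∑ t, ψ (2⁻¹ * (r ^ 2 * c) - r * t) * ψ (t * s) =
    ψ (2⁻¹ * (r ^ 2 * c)) * ∑ t, ψ (t * (s - r)) by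
      simp only [Finset.mul_sum, ← AddChar.map_add_eq_mul]
      exact Finset.sum_congr rfl fun t _ => by congr 1; ring]
  simp [AddChar.sum_mulShift _ (AddChar.IsPrimitive.of_ne_one hψ), sub_eq_zero]
  field_simp

/-- the two constituents of the Weil representation -/
noncomputable abbrev weilRep (m : ℕ) (ε : ℂ) := wRep (spWeil (l := Fin m) (isChar_of_ne hψ) h2) ε

theorem weilRep_one (m : ℕ) {ε : ℂ} (hε : ε * ε = 1) :
    (weilRep hψ h2 m ε).character 1 = (Fintype.card F ^ m + ε) / 2 := by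
  rw [Representation.char_one, WeilData.finrank_E _ hε]
  simp

theorem weilRep_irr (hm : 1 ≤ m) {ε : ℂ} (hε : ε * ε = 1) : (weilRep hψ h2 m ε).IsIrreducible := by
  have h : 2 ≤ finrank ℂ ((Fin m → F) → ℂ) := by
    simpa [Nat.succ_le_iff] using Nat.one_lt_pow (by omega) Fintype.one_lt_card
  have h1 := (spWeil (l := Fin m) (isChar_of_ne hψ) h2).finrank_E_one
  have h3 := (spWeil (l := Fin m) (isChar_of_ne hψ) h2).finrank_E_neg
  have : Nontrivial ((spWeil (l := Fin m) (isChar_of_ne hψ) h2).E ε) :=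
    Module.nontrivial_of_finrank_pos (R := ℂ) (by rcases mul_self_eq_one_iff.1 hε with rfl | rfl <;> omega)
  exact WeilData.isIrreducible _ (fun v w hv hw => exists_smul_eq hv hw) h ε

theorem Rk1.weil [FiniteDimensional ℂ V] [ρ.IsIrreducible] (h : Rk1 ρ ψ) (hs : SqEig ρ ψ) (hV : 2 ≤ finrank ℂ V)
    (hm : 2 ≤ m) : ∃ ε : ℂ, ε * ε = 1 ∧ ρ.character = (weilRep hψ h2 m ε).character := by
  set D := spWeil (l := Fin m) (isChar_of_ne hψ) h2
  have hc : ∀ u v, D.c u v = ψ (-(2⁻¹ * spB (Fin m) F u v)) := fun _ _ => rfl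
  refine weil_recog D ρ (commutator_eq_top_of_two_ne_zero hm h2) (gam ρ ψ) (LinearMap.ext fun v => ?_)
    (h.gam_mul hψ h2 hs hV hm) (fun S hS => eq_top_of_spT_mem S fun w c _ =>
      hS _ ⟨∑ t, kerT ψ c t • D.b (t • w), fun v => ?_, ?_⟩) fun ε => weilRep_irr hψ h2 (by omega)
  · rw [gam_apply hψ h2 (s := 0) fun c => by simp [spT_zero_left]]
    norm_num
  · simp only [Finset.sum_mul, Finset.mul_sum, smul_mul_assoc, mul_smul_comm, D.b_mul, smul_smul, hc, spT_smul]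
    refine Fintype.sum_equiv (Equiv.subRight (c * spB (Fin m) F v w)) _ _ fun t => ?_
    have := kerT_shift (ψ := ψ) h2 c t (-spB (Fin m) F v w)
    simp only [Equiv.subRight_apply, map_add, map_smul, LinearMap.add_apply, LinearMap.smul_apply, spB_self,
      spB_comm w v, smul_eq_mul, mul_zero, add_zero]
    congr 1
    · convert this.symm using 3 <;> ring
    · congr 1; module
  · refine sub_eq_zero.1 (h.ext1 w fun a v hv v0 => ?_)
    obtain ⟨s, rfl⟩ := hs _ _ v hv v0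
    have e : ∀ t, gam ρ ψ (t • w) v = (2⁻¹ * (ψ (t * s) + ψ (t * -s))) • v := fun t => by
      rw [mul_neg]
      refine gam_apply hψ h2 fun c => ?_
      rw [spT_smul_left, hv, AddChar.mulShift_apply, AddChar.mulShift_apply]
      congr 2; ring
    simp only [LinearMap.sub_apply, map_sum, map_smul, Basis.constr_basis, LinearMap.sum_apply, LinearMap.smul_apply, e,
      smul_smul, ← Finset.sum_smul, mem_tE.1 hv, mul_left_comm _ (2⁻¹ : ℂ), ← Finset.mul_sum, mul_add,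
      Finset.sum_add_distrib, sum_kerT hψ, neg_sq]
    module

variable [FiniteDimensional ℂ V] [ρ.IsIrreducible] (hV : 2 ≤ finrank ℂ V) (hm : 2 ≤ m)
  (h : 2 * (Fintype.card F + 1) * finrank ℂ V < (Fintype.card F ^ m - 1) * (Fintype.card F ^ m - Fintype.card F))
  {δ : F} (hδ : ¬ IsSquare δ)
include hV hm h hδ

theorem sp_small (hψ' : ψ.mulShift δ ≠ 1) : ∃ ε : ℂ, ε * ε = 1 ∧
    (ρ.character = (weilRep hψ h2 m ε).character ∨ ρ.character = (weilRep hψ' h2 m ε).character) := by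
  obtain ⟨a₀, h0, -, ha⟩ := (rk1_of_small (ρ := ρ) hm hψ h).exists_class hψ hV hm h2
  have δ0 : δ ≠ 0 := by rintro rfl; simp at hδ
  by_cases hs : IsSquare (2 * a₀)
  · obtain ⟨j, hj⟩ := hs
    have j0 : j ≠ 0 := by rintro rfl; simp [h2, h0] at hj
    refine ((rk1_of_small hm hψ h).weil hψ h2 (fun e a v hv v0 => ?_) hV hm).imp fun _ => And.imp_right .inl
    obtain ⟨k, hk⟩ := ha e a v hv v0
    exact ⟨2 * k / j, by field_simp; linear_combination 2 * hk - a * hj⟩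
  · obtain ⟨j, hj⟩ : IsSquare (2 * a₀ * δ) := by
      rw [← quadraticChar_one_iff_isSquare (by simp [h2, h0, δ0]), map_mul,
        quadraticChar_neg_one_iff_not_isSquare.2 hs, quadraticChar_neg_one_iff_not_isSquare.2 hδ]
      simp
    have j0 : j ≠ 0 := by rintro rfl; simp [h2, h0, δ0] at hj
    refine ((rk1_of_small hm hψ' h).weil hψ' h2 (fun e a v hv v0 => ?_) hV hm).imp fun _ => And.imp_right .inr
    obtain ⟨k, hk⟩ := ha e (δ * a) v (by simpa only [tE, AddChar.mulShift_mulShift] using hv) v0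
    exact ⟨2 * k / j, by field_simp; linear_combination 2 * hk - a * hj⟩

theorem char_simAut_ne (δ0 : δ ≠ 0) :
    Representation.character (ρ.comp (simAut (Units.mk0 δ δ0)⁻¹).toMonoidHom) ≠ ρ.character := fun hc => by
  obtain ⟨a₀, h0, ⟨e, v, hv, v0⟩, ha⟩ := (rk1_of_small (ρ := ρ) hm hψ h).exists_class hψ hV hm h2
  have h1 := card_mul_ex (ρ := ρ) (spT_add e) (ψ.mulShift a₀)
  rw [← hc, ← card_mul_ex (spT_add e), mul_right_inj' (Nat.cast_ne_zero.2 Fintype.card_ne_zero), Nat.cast_inj] at h1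
  obtain ⟨w, hw, w0⟩ := Submodule.exists_mem_ne_zero_of_ne_bot fun e =>
    v0 ((Submodule.finrank_eq_zero.1 (h1.trans (Submodule.finrank_eq_zero.2 e))).le hv)
  obtain ⟨k, hk⟩ := ha (simD δ⁻¹ *ᵥ e) (a₀ / δ) w (fun c => by
    have := hw (c / δ)
    rw [MonoidHom.comp_apply, MulEquiv.coe_toMonoidHom, simAut_spT] at this
    simpa [mul_div_cancel₀ _ δ0, div_mul_eq_mul_div, mul_div_assoc] using this) w0
  have k0 : k ≠ 0 := by rintro rfl; simp [h0, δ0] at hk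
  exact hδ ⟨a₀ / k, by field_simp at hk ⊢; linear_combination -hk⟩

end CfsgLib.ClDeg
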